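import Mathlib.Combinatorics.SimpleGraph.DegreeSum
import Mathlib.Data.Set.Card
import Mathlib.Algebra.Group.Nat.Even
import Mathlib.Tactic.IntervalCases

/-!
# 3-regular degree graphs (S4919): combinatorics (helper670)

* `Cub A V` : `A` is a symmetric relation on the finite set `V` in which every element has exactly three neighbours;
* `Cub.even` : `V` has an even number of elements;
* `Cub.kite` : the combinatorics when `V` contains two triangles with a common edge;
* `Cub.clique`, `Cub.big` : the other cases of a simple group different from `PSL(2,q)`.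
-/

set_option autoImplicit false

namespace Cfsg.Agent.H670.Reg

/-- A symmetric relation on the finite set `V` in which every element has exactly three neighbours. -/
structure Cub (A : ℕ → ℕ → Prop) (V : Finset ℕ) : Prop where
  symm : ∀ {a b : ℕ}, A a b → A b a
  irr : ∀ a : ℕ, ¬ A a a
  mem : ∀ {a b : ℕ}, A a b → a ∈ V
  deg : ∀ a ∈ V, ∃ x y z : ℕ, x ≠ y ∧ x ≠ z ∧ y ≠ z ∧ A a x ∧ A a y ∧ A a z ∧ ∀ w, A a w → w = x ∨ w = y ∨ w = z

namespace Cub

variable {A : ℕ → ℕ → Prop} {V : Finset ℕ}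

theorem ne (h : Cub A V) {a b : ℕ} (hab : A a b) : a ≠ b := by
  rintro rfl
  exact h.irr _ hab

/-- three neighbours are all -/
theorem only (h : Cub A V) {v x y z : ℕ} (hx : A v x) (hy : A v y) (hz : A v z) (hxy : x ≠ y) (hxz : x ≠ z)
    (hyz : y ≠ z) {w : ℕ} (hw : A v w) : w = x ∨ w = y ∨ w = z := by
  obtain ⟨a, b, c, hab, hac, hbc, -, -, -, hall⟩ := h.deg v (h.mem hx)
  have h1 := hall x hx
  have h2 := hall y hy
  have h3 := hall z hz
  have h4 := hall w hw
  clear hall
  omega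

theorem four (h : Cub A V) {v x y z w : ℕ} (hx : A v x) (hy : A v y) (hz : A v z) (hw : A v w) (hxy : x ≠ y)
    (hxz : x ≠ z) (hyz : y ≠ z) (hxw : x ≠ w) (hyw : y ≠ w) (hzw : z ≠ w) : False := by
  rcases h.only hx hy hz hxy hxz hyz hw with h1 | h1 | h1
  · exact hxw h1.symm
  · exact hyw h1.symm
  · exact hzw h1.symm

/-- the third neighbour -/
theorem third (h : Cub A V) {v x y : ℕ} (hx : A v x) (hy : A v y) (hxy : x ≠ y) :
    ∃ z, x ≠ z ∧ y ≠ z ∧ A v z ∧ ∀ w, A v w → w = x ∨ w = y ∨ w = z := by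
  obtain ⟨a, b, c, hab, hac, hbc, ha, hb, hc, hall⟩ := h.deg v (h.mem hx)
  have h1 := hall x hx
  have h2 := hall y hy
  have key : ∀ z, A v z → x ≠ z → y ≠ z → ∃ z, x ≠ z ∧ y ≠ z ∧ A v z ∧ ∀ w, A v w → w = x ∨ w = y ∨ w = z :=
    fun z hz h3 h4 => ⟨z, h3, h4, hz, fun w hw => h.only hx hy hz hxy h3 h4 hw⟩
  by_cases e1 : x ≠ a ∧ y ≠ a
  · exact key a ha e1.1 e1.2
  by_cases e2 : x ≠ b ∧ y ≠ b
  · exact key b hb e2.1 e2.2
  refine key c hc ?_ ?_ <;> omega

/-- the other two neighbours -/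
theorem second (h : Cub A V) {v x : ℕ} (hx : A v x) :
    ∃ y z, x ≠ y ∧ x ≠ z ∧ y ≠ z ∧ A v y ∧ A v z ∧ ∀ w, A v w → w = x ∨ w = y ∨ w = z := by
  obtain ⟨a, b, c, hab, hac, hbc, ha, hb, hc, hall⟩ := h.deg v (h.mem hx)
  have h1 := hall x hx
  have h5 : ∃ y, x ≠ y ∧ A v y := by
    by_cases e1 : x = a
    · exact ⟨b, by omega, hb⟩
    · exact ⟨a, e1, ha⟩
  obtain ⟨y, hxy, hy⟩ := h5
  obtain ⟨z, hxz, hyz, hz, hw⟩ := h.third hx hy hxy
  exact ⟨y, z, hxy, hxz, hyz, hy, hz, hw⟩

/-- **parity** -/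
theorem even (h : Cub A V) : Even V.card := by
  classical
  let Γ : SimpleGraph V :=
    { Adj := fun a b => A a b
      symm := ⟨fun a b hab => h.symm hab⟩
      loopless := ⟨fun a ha => h.irr _ ha⟩ }
  have hdeg : ∀ v : V, Γ.degree v = 3 := by
    intro v
    obtain ⟨x, y, z, hxy, hxz, hyz, hx, hy, hz, hall⟩ := h.deg v v.2
    have h1 : Γ.neighborFinset v = {(⟨x, h.mem (h.symm hx)⟩ : V), ⟨y, h.mem (h.symm hy)⟩, ⟨z, h.mem (h.symm hz)⟩} := by
      ext w
      rw [SimpleGraph.mem_neighborFinset]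
      simp only [Finset.mem_insert, Finset.mem_singleton]
      constructor
      · intro hw
        rcases hall w hw with h2 | h2 | h2
        · exact Or.inl (Subtype.ext h2)
        · exact Or.inr (Or.inl (Subtype.ext h2))
        · exact Or.inr (Or.inr (Subtype.ext h2))
      · rintro (h2 | h2 | h2)
        · rw [h2]; exact hx
        · rw [h2]; exact hy
        · rw [h2]; exact hz
    rw [SimpleGraph.degree, h1, Finset.card_insert_of_notMem, Finset.card_insert_of_notMem, Finset.card_singleton]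
    · simp only [Finset.mem_singleton]
      intro h2
      exact hyz (congrArg Subtype.val h2)
    · simp only [Finset.mem_insert, Finset.mem_singleton]
      rintro (h2 | h2)
      · exact hxy (congrArg Subtype.val h2)
      · exact hxz (congrArg Subtype.val h2)
  have h2 := Γ.sum_degrees_eq_twice_card_edges
  rw [Finset.sum_congr rfl fun v _ => hdeg v, Finset.sum_const, Finset.card_univ, Fintype.card_coe] at h2
  rw [Nat.even_iff]
  simp only [smul_eq_mul] at h2
  omega

theorem four_le (h : Cub A V) (hne : V.Nonempty) : 4 ≤ V.card := by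
  classical
  obtain ⟨v, hv⟩ := hne
  obtain ⟨x, y, z, hxy, hxz, hyz, hx, hy, hz, -⟩ := h.deg v hv
  have h1 : ({v, x, y, z} : Finset ℕ) ⊆ V := by
    intro w hw
    simp only [Finset.mem_insert, Finset.mem_singleton] at hw
    rcases hw with rfl | rfl | rfl | rfl
    · exact hv
    · exact h.mem (h.symm hx)
    · exact h.mem (h.symm hy)
    · exact h.mem (h.symm hz)
  have h2 : ({v, x, y, z} : Finset ℕ).card = 4 := by
    have e1 := h.ne hx
    have e2 := h.ne hy
    have e3 := h.ne hz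
    rw [Finset.card_insert_of_notMem, Finset.card_insert_of_notMem, Finset.card_insert_of_notMem, Finset.card_singleton]
    · simpa using hyz
    · simp [hxy, hxz]
    · simp [e1, e2, e3]
  rw [← h2]
  exact Finset.card_le_card h1

/-- A graph with four vertices is complete. -/
theorem complete (h : Cub A V) (h4 : V.card = 4) {a b : ℕ} (ha : a ∈ V) (hb : b ∈ V) (hab : a ≠ b) : A a b := by
  classical
  obtain ⟨x, y, z, hxy, hxz, hyz, hx, hy, hz, -⟩ := h.deg a ha
  by_contra hc
  have h1 : ({a, x, y, z, b} : Finset ℕ) ⊆ V := by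
    intro w hw
    simp only [Finset.mem_insert, Finset.mem_singleton] at hw
    rcases hw with rfl | rfl | rfl | rfl | rfl
    · exact ha
    · exact h.mem (h.symm hx)
    · exact h.mem (h.symm hy)
    · exact h.mem (h.symm hz)
    · exact hb
  have h2 : ({a, x, y, z, b} : Finset ℕ).card = 5 := by
    have e1 := h.ne hx
    have e2 := h.ne hy
    have e3 := h.ne hz
    have f1 : x ≠ b := by rintro rfl; exact hc hx
    have f2 : y ≠ b := by rintro rfl; exact hc hy
    have f3 : z ≠ b := by rintro rfl; exact hc hz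
    rw [Finset.card_insert_of_notMem, Finset.card_insert_of_notMem, Finset.card_insert_of_notMem,
      Finset.card_insert_of_notMem, Finset.card_singleton]
    · simpa using f3
    · simp [hyz, f2]
    · simp [hxy, hxz, f1]
    · simp [e1, e2, e3, hab]
  have h3 := Finset.card_le_card h1
  omega

/-- the case `w' ∈ P`, `z' ∉ P` of `kite` -/
theorem b3 (h : Cub A V) {P : Finset ℕ} (hO2 : ∀ x y, x ∉ P → y ∉ P → A x y → ∃ p ∈ P, A x p ∧ A y p)
    {u v w z w' z' : ℕ} (hPQ : ∀ t ∈ P, t = u ∨ t = v ∨ t = w ∨ t = z ∨ t = w' ∨ t = z')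
    (hV : ∀ x ∈ V, x ∉ P → x = w' ∨ x = z' ∨ (w' ∈ P ∧ A w' x) ∨ (z' ∈ P ∧ A z' x))
    (hinP : ∀ x, x ∉ P → x ≠ u ∧ x ≠ v ∧ x ≠ w ∧ x ≠ z) (huw' : u ≠ w') (hvw' : v ≠ w') (hw'w : w' ≠ w) (hw'z : w' ≠ z)
    (hww' : A w w') (hzz' : A z z')
    (Q1 : ∀ x, x ≠ v → x ≠ w → x ≠ z → ¬ A x u) (Q2 : ∀ x, x ≠ u → x ≠ w → x ≠ z → ¬ A x v)
    (Q3 : ∀ x, x ≠ u → x ≠ v → x ≠ w' → ¬ A x w) (Q4 : ∀ x, x ≠ u → x ≠ v → x ≠ z' → ¬ A x z)
    (hwP : w' ∈ P) (hzP : z' ∉ P) : False := by
  have hz' := hinP z' hzP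
  have hne : w' ≠ z' := by rintro rfl; exact hzP hwP
  -- vertices outside `P`
  have hV' : ∀ x ∈ V, x ∉ P → x = z' ∨ A w' x := by
    intro x hx hxP
    rcases hV x hx hxP with h1 | h1 | ⟨-, h1⟩ | ⟨h1, -⟩
    · exact absurd hwP (h1 ▸ hxP)
    · exact Or.inl h1
    · exact Or.inr h1
    · exact absurd h1 hzP
  have hPQ' : ∀ t ∈ P, t = u ∨ t = v ∨ t = w ∨ t = z ∨ t = w' := by
    intro t ht
    rcases hPQ t ht with h1 | h1 | h1 | h1 | h1 | h1
    · exact Or.inl h1
    · exact Or.inr (Or.inl h1)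
    · exact Or.inr (Or.inr (Or.inl h1))
    · exact Or.inr (Or.inr (Or.inr (Or.inl h1)))
    · exact Or.inr (Or.inr (Or.inr (Or.inr h1)))
    · exact absurd ht (h1 ▸ hzP)
  have inP : ∀ x t, x ∉ P → x ≠ z' → t ∈ P → A x t → t = w' := by
    intro x t hx hxz ht hxt
    have hh := hinP x hx
    rcases hPQ' t ht with rfl | rfl | rfl | rfl | h1
    · exact absurd hxt (Q1 x hh.2.1 hh.2.2.1 hh.2.2.2)
    · exact absurd hxt (Q2 x hh.1 hh.2.2.1 hh.2.2.2)
    · exact absurd hxt (Q3 x hh.1 hh.2.1 (by rintro rfl; exact hx hwP))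
    · exact absurd hxt (Q4 x hh.1 hh.2.1 hxz)
    · exact h1
  by_cases hA : A w' z'
  · obtain ⟨s, hs1, hs2, hs, Ns⟩ := h.third (h.symm hww') hA hz'.2.2.1.symm
    have hs3 := (h.ne hs).symm
    have e1 : s ≠ u := by rintro rfl; exact Q1 w' hvw'.symm hw'w hw'z hs
    have e2 : s ≠ v := by rintro rfl; exact Q2 w' huw'.symm hw'w hw'z hs
    have e3 : s ≠ z := by rintro rfl; exact Q4 w' huw'.symm hvw'.symm hne hs
    have hsP : s ∉ P := by
      intro h1
      rcases hPQ' s h1 with h2 | h2 | h2 | h2 | h2 <;> omega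
    have key : ∀ x, A s x → x = w' ∨ x = z' := by
      intro x hx
      have hxs := (h.ne hx).symm
      by_cases hxP : x ∈ P
      · exact Or.inl (inP s x hsP hs2.symm hxP hx)
      · rcases hV' x (h.mem (h.symm hx)) hxP with h1 | h1
        · exact Or.inr h1
        · have := Ns x h1
          have := hinP x hxP
          omega
    obtain ⟨x, y, h1, h2, h3, h4, h5, -⟩ := h.second (h.symm hs)
    have h6 := key x h4
    have h7 := key y h5
    omega
  · obtain ⟨x, y, h1, h2, h3, h4, h5, -⟩ := h.second (h.symm hzz')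
    have hxP : x ∉ P := by
      intro hxP
      rcases hPQ' x hxP with rfl | rfl | rfl | rfl | rfl
      · exact Q1 z' hz'.2.1 hz'.2.2.1 hz'.2.2.2 h4
      · exact Q2 z' hz'.1 hz'.2.2.1 hz'.2.2.2 h4
      · exact Q3 z' hz'.1 hz'.2.1 hne.symm h4
      · exact h1 rfl
      · exact hA (h.symm h4)
    obtain ⟨p, hp, hp1, hp2⟩ := hO2 z' x hzP hxP h4
    have hxz : x ≠ z' := (h.ne h4).symm
    have hh := hinP x hxP
    rcases hPQ' p hp with rfl | rfl | rfl | rfl | rfl
    · exact Q1 z' hz'.2.1 hz'.2.2.1 hz'.2.2.2 hp1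
    · exact Q2 z' hz'.1 hz'.2.2.1 hz'.2.2.2 hp1
    · exact Q3 z' hz'.1 hz'.2.1 hne.symm hp1
    · exact Q4 x hh.1 hh.2.1 hxz hp2
    · exact hA (h.symm hp1)

/-- **Two triangles with a common edge.** -/
theorem kite (h : Cub A V) {P : Finset ℕ} (hO1 : ∀ x ∈ V, x ∉ P → ∃ p ∈ P, A x p)
    (hO2 : ∀ x y, x ∉ P → y ∉ P → A x y → ∃ p ∈ P, A x p ∧ A y p)
    (hI : ∀ a ∈ P, ∀ b ∈ P, ∀ c ∈ P, a ≠ b → b ≠ c → a ≠ c → A a b ∨ A b c ∨ A a c)
    (hC : ∀ Q ⊆ P, Q.Nonempty → Q ≠ P → ∃ a ∈ Q, ∃ b ∈ P, b ∉ Q ∧ A a b)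
    {u v w z : ℕ} (hu : u ∈ P) (hv : v ∈ P) (hw : w ∈ P) (hz : z ∈ P) (hwz : w ≠ z) (huv : A u v) (huw : A u w)
    (hvw : A v w) (huz : A u z) (hvz : A v z) : V.card ≤ 4 := by
  classical
  have nuv := h.ne huv
  have nuw := h.ne huw
  have nvw := h.ne hvw
  have nuz := h.ne huz
  have nvz := h.ne hvz
  have Nu : ∀ x, A u x → x = v ∨ x = w ∨ x = z := fun x hx => h.only huv huw huz nvw nvz hwz hx
  have Nv : ∀ x, A v x → x = u ∨ x = w ∨ x = z := fun x hx => h.only (h.symm huv) hvw hvz nuw nuz hwz hx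
  by_cases hA : A w z
  · -- a closed complete graph
    have Nw : ∀ x, A w x → x = u ∨ x = v ∨ x = z := fun x hx =>
      h.only (h.symm huw) (h.symm hvw) hA nuv nuz nvz hx
    have Nz : ∀ x, A z x → x = u ∨ x = v ∨ x = w := fun x hx =>
      h.only (h.symm huz) (h.symm hvz) (h.symm hA) nuv nuw nvw hx
    set Q : Finset ℕ := {u, v, w, z} with hQ
    have hmQ : ∀ x, x ∈ Q ↔ x = u ∨ x = v ∨ x = w ∨ x = z := by
      intro x
      simp [hQ]
    have hQP : Q ⊆ P := by
      intro x hx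
      rcases (hmQ x).1 hx with rfl | rfl | rfl | rfl <;> assumption
    have hPQ : Q = P := by
      by_contra hne
      obtain ⟨a, ha, b, hb, hbQ, hab⟩ := hC Q hQP ⟨u, (hmQ u).2 (Or.inl rfl)⟩ hne
      apply hbQ
      rw [hmQ] at ha ⊢
      rcases ha with rfl | rfl | rfl | rfl
      · have := Nu b hab; omega
      · have := Nv b hab; omega
      · have := Nw b hab; omega
      · have := Nz b hab; omega
    have hVQ : V ⊆ Q := by
      intro x hx
      by_contra hxQ
      obtain ⟨p, hp, hxp⟩ := hO1 x hx (hPQ ▸ hxQ)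
      apply hxQ
      rw [← hPQ, hmQ] at hp
      have hpx := h.symm hxp
      rw [hmQ]
      rcases hp with rfl | rfl | rfl | rfl
      · have := Nu x hpx; omega
      · have := Nv x hpx; omega
      · have := Nw x hpx; omega
      · have := Nz x hpx; omega
    exact (Finset.card_le_card hVQ).trans Finset.card_le_four
  exfalso
  obtain ⟨w', huw', hvw', hww', Nw⟩ := h.third (h.symm huw) (h.symm hvw) nuv
  obtain ⟨z', huz', hvz', hzz', Nz⟩ := h.third (h.symm huz) (h.symm hvz) nuv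
  have hw'w := (h.ne hww').symm
  have hz'z := (h.ne hzz').symm
  have hw'z : w' ≠ z := by rintro rfl; exact hA hww'
  have hz'w : z' ≠ w := by rintro rfl; exact hA (h.symm hzz')
  -- neighbours inside `Q` of a vertex `x` outside `Q`
  have Q1 : ∀ x, x ≠ v → x ≠ w → x ≠ z → ¬ A x u := fun x h1 h2 h3 hx => by
    have := Nu x (h.symm hx); omega
  have Q2 : ∀ x, x ≠ u → x ≠ w → x ≠ z → ¬ A x v := fun x h1 h2 h3 hx => by
    have := Nv x (h.symm hx); omega
  have Q3 : ∀ x, x ≠ u → x ≠ v → x ≠ w' → ¬ A x w := fun x h1 h2 h3 hx => by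
    have := Nw x (h.symm hx); omega
  have Q4 : ∀ x, x ≠ u → x ≠ v → x ≠ z' → ¬ A x z := fun x h1 h2 h3 hx => by
    have := Nz x (h.symm hx); omega
  have hPQ : ∀ t ∈ P, t = u ∨ t = v ∨ t = w ∨ t = z ∨ t = w' ∨ t = z' := by
    intro t ht
    by_contra hcon
    push Not at hcon
    obtain ⟨h1, h2, h3, h4, h5, h6⟩ := hcon
    rcases hI w hw z hz t ht hwz h4.symm h3.symm with h7 | h7 | h7
    · exact hA h7
    · exact Q4 t h1 h2 h6 (h.symm h7)
    · exact Q3 t h1 h2 h5 (h.symm h7)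
  -- the vertices of `V` outside `P`
  have hV : ∀ x ∈ V, x ∉ P → x = w' ∨ x = z' ∨ (w' ∈ P ∧ A w' x) ∨ (z' ∈ P ∧ A z' x) := by
    intro x hx hxP
    have e1 : x ≠ u := by rintro rfl; exact hxP hu
    have e2 : x ≠ v := by rintro rfl; exact hxP hv
    have e3 : x ≠ w := by rintro rfl; exact hxP hw
    have e4 : x ≠ z := by rintro rfl; exact hxP hz
    obtain ⟨p, hp, hxp⟩ := hO1 x hx hxP
    rcases hPQ p hp with rfl | rfl | rfl | rfl | rfl | rfl
    · exact absurd hxp (Q1 x e2 e3 e4)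
    · exact absurd hxp (Q2 x e1 e3 e4)
    · left
      by_contra h5
      exact Q3 x e1 e2 h5 hxp
    · right; left
      by_contra h5
      exact Q4 x e1 e2 h5 hxp
    · exact Or.inr (Or.inr (Or.inl ⟨hp, h.symm hxp⟩))
    · exact Or.inr (Or.inr (Or.inr ⟨hp, h.symm hxp⟩))
  have hinP : ∀ x, x ∉ P → x ≠ u ∧ x ≠ v ∧ x ≠ w ∧ x ≠ z := by
    intro x hx
    refine ⟨?_, ?_, ?_, ?_⟩ <;> rintro rfl <;> contradiction
  by_cases hwP : w' ∈ P <;> by_cases hzP : z' ∈ P
  · by_cases he : w' = z'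
    · -- (b1)
      subst he
      obtain ⟨s, hs1, hs2, hs, Ns⟩ := h.third (h.symm hww') (h.symm hzz') hwz
      have hs3 := (h.ne hs).symm
      have e1 : s ≠ u := by rintro rfl; exact Q1 w' hvw'.symm hw'w hw'z hs
      have e2 : s ≠ v := by rintro rfl; exact Q2 w' huw'.symm hw'w hw'z hs
      obtain ⟨x, y, -, hsx, hsy, hxy, hx, hy, -⟩ :=
        (show ∃ x y : ℕ, True ∧ w' ≠ x ∧ w' ≠ y ∧ x ≠ y ∧ A s x ∧ A s y ∧ True by
          obtain ⟨x, y, h1, h2, h3, h4, h5, -⟩ := h.second (h.symm hs)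
          exact ⟨x, y, trivial, h1, h2, h3, h4, h5, trivial⟩)
      have hsP : s ∉ P := by
        intro h1
        rcases hPQ s h1 with h2 | h2 | h2 | h2 | h2 | h2 <;> omega
      have hxV := h.mem (h.symm hx)
      have key : ∀ x, w' ≠ x → A s x → False := by
        intro x hx1 hx
        have hxs := (h.ne hx).symm
        by_cases hxP : x ∈ P
        · rcases hPQ x hxP with rfl | rfl | rfl | rfl | rfl | rfl
          · exact Q1 s e2 hs1.symm hs2.symm hx
          · exact Q2 s e1 hs1.symm hs2.symm hx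
          · exact Q3 s e1 e2 hs3 hx
          · exact Q4 s e1 e2 hs3 hx
          · exact hx1 rfl
          · exact hx1 rfl
        · rcases hV x (h.mem (h.symm hx)) hxP with h1 | h1 | ⟨-, h1⟩ | ⟨-, h1⟩
          · exact hx1 h1.symm
          · exact hx1 h1.symm
          · have := Ns x h1
            have := hinP x hxP
            omega
          · have := Ns x h1
            have := hinP x hxP
            omega
      exact key x hsx hx
    · -- (b2)
      have hst : A w' z' := by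
        rcases hI u hu w' hwP z' hzP huw' he huz' with h1 | h1 | h1
        · exact absurd (h.symm h1) (Q1 w' hvw'.symm hw'w hw'z)
        · exact h1
        · exact absurd (h.symm h1) (Q1 z' hvz'.symm hz'w hz'z)
      obtain ⟨s, hs1, hs2, hs, Ns⟩ := h.third (h.symm hww') hst hz'w.symm
      obtain ⟨t, ht1, ht2, ht, Nt⟩ := h.third (h.symm hzz') (h.symm hst) hw'z.symm
      have hs3 := (h.ne hs).symm
      have ht3 := (h.ne ht).symm
      have e1 : s ≠ u := by rintro rfl; exact Q1 w' hvw'.symm hw'w hw'z hs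
      have e2 : s ≠ v := by rintro rfl; exact Q2 w' huw'.symm hw'w hw'z hs
      have e3 : s ≠ z := by rintro rfl; exact Q4 w' huw'.symm hvw'.symm he hs
      have hsP : s ∉ P := by
        intro h1
        rcases hPQ s h1 with h2 | h2 | h2 | h2 | h2 | h2 <;> omega
      -- all neighbours of `s` are `w'`, `z'`, `t`
      have key : ∀ x, A s x → x = w' ∨ x = z' ∨ x = t := by
        intro x hx
        have hxs := (h.ne hx).symm
        by_cases hxP : x ∈ P
        · rcases hPQ x hxP with rfl | rfl | rfl | rfl | rfl | rfl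
          · exact absurd hx (Q1 s e2 hs1.symm e3)
          · exact absurd hx (Q2 s e1 hs1.symm e3)
          · exact absurd hx (Q3 s e1 e2 hs3)
          · exact absurd hx (Q4 s e1 e2 hs2.symm)
          · exact Or.inl rfl
          · exact Or.inr (Or.inl rfl)
        · have hh := hinP x hxP
          rcases hV x (h.mem (h.symm hx)) hxP with h1 | h1 | ⟨-, h1⟩ | ⟨-, h1⟩
          · exact Or.inl h1
          · exact Or.inr (Or.inl h1)
          · have := Ns x h1
            omega
          · have := Nt x h1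
            omega
      by_cases hst' : s = t
      · subst hst'
        obtain ⟨x, y, h1, h2, h3, h4, h5, -⟩ := h.second (h.symm hs)
        have h6 := key x h4
        have h7 := key y h5
        have h8 := h.ne h4
        have h9 := h.ne h5
        omega
      · obtain ⟨x, y, h1, h2, h3, h4, h5, -⟩ := h.second (h.symm hs)
        have h6 := key x h4
        have h7 := key y h5
        have h10 : ¬ A s z' := by
          intro h11
          have := Nt s (h.symm h11)
          omega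
        have h11 : x ≠ z' := by rintro rfl; exact h10 h4
        have h12 : y ≠ z' := by rintro rfl; exact h10 h5
        omega
  · -- (b3)
    exact b3 h hO2 hPQ hV hinP huw' hvw' hw'w hw'z hww' hzz' Q1 Q2 Q3 Q4 hwP hzP
  · refine b3 h hO2 (u := u) (v := v) (w := z) (z := w) (w' := z') (z' := w') ?_ ?_ ?_ huz' hvz' hz'z hz'w hzz' hww' ?_ ?_
      Q4 Q3 hzP hwP
    · intro t ht
      have := hPQ t ht
      omega
    · intro x hx hxP
      rcases hV x hx hxP with h1 | h1 | h1 | h1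
      · exact Or.inr (Or.inl h1)
      · exact Or.inl h1
      · exact Or.inr (Or.inr (Or.inr h1))
      · exact Or.inr (Or.inr (Or.inl h1))
    · intro x hx
      have := hinP x hx
      omega
    · exact fun x h1 h2 h3 => Q1 x h1 h3 h2
    · exact fun x h1 h2 h3 => Q2 x h1 h3 h2
  · -- (a)
    have hh := hinP w' hwP
    have hh' := hinP z' hzP
    have key : ∀ x, A w' x → x = w ∨ (x = z ∧ w' = z') ∨ x = z' := by
      intro x hx
      have hxs := (h.ne hx).symm
      by_cases hxP : x ∈ P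
      · rcases hPQ x hxP with rfl | rfl | rfl | rfl | rfl | rfl
        · exact absurd hx (Q1 w' hh.2.1 hh.2.2.1 hh.2.2.2)
        · exact absurd hx (Q2 w' hh.1 hh.2.2.1 hh.2.2.2)
        · exact Or.inl rfl
        · right; left
          refine ⟨rfl, ?_⟩
          by_contra hne
          exact Q4 w' hh.1 hh.2.1 hne hx
        · exact absurd hxP hwP
        · exact absurd hxP hzP
      · rcases hV x (h.mem (h.symm hx)) hxP with h1 | h1 | ⟨h1, -⟩ | ⟨h1, -⟩
        · exact absurd h1 hxs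
        · exact Or.inr (Or.inr h1)
        · exact absurd h1 hwP
        · exact absurd h1 hzP
    obtain ⟨x, y, h1, h2, h3, h4, h5, -⟩ := h.second (h.symm hww')
    have h6 := key x h4
    have h7 := key y h5
    have h8 := h.ne h4
    have h9 := h.ne h5
    omega

/-- **A complete subset.** -/
theorem clique (h : Cub A V) {P : Finset ℕ} (hO1 : ∀ x ∈ V, x ∉ P → ∃ p ∈ P, A x p)
    (hO2 : ∀ x y, x ∉ P → y ∉ P → A x y → ∃ p ∈ P, A x p ∧ A y p) (h3 : 3 ≤ P.card)
    (hP : ∀ a ∈ P, ∀ b ∈ P, a ≠ b → A a b) : V.card ≤ 4 := by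
  classical
  rcases Nat.lt_or_ge P.card 4 with h4 | h4
  · obtain ⟨a, b, c, hab, hac, hbc, rfl⟩ := Finset.card_eq_three.1 (show P.card = 3 by omega)
    have ma : a ∈ ({a, b, c} : Finset ℕ) := by simp
    have mb : b ∈ ({a, b, c} : Finset ℕ) := by simp
    have mc : c ∈ ({a, b, c} : Finset ℕ) := by simp
    have hmem : ∀ x, x ∈ ({a, b, c} : Finset ℕ) ↔ x = a ∨ x = b ∨ x = c := by simp
    have Aab := hP a ma b mb hab
    have Aac := hP a ma c mc hac
    have Abc := hP b mb c mc hbc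
    -- two different outside vertices have no common neighbour in `P`
    have key : ∀ x y p, x ∉ ({a, b, c} : Finset ℕ) → y ∉ ({a, b, c} : Finset ℕ) → x ≠ y → p ∈ ({a, b, c} : Finset ℕ) →
        A x p → A y p → False := by
      intro x y p hx hy hxy hp hxp hyp
      rw [hmem] at hx hy hp
      push Not at hx hy
      rcases hp with rfl | rfl | rfl
      · exact h.four Aab Aac (h.symm hxp) (h.symm hyp) hbc hx.2.1.symm hx.2.2.symm hy.2.1.symm hy.2.2.symm hxy
      · exact h.four (h.symm Aab) Abc (h.symm hxp) (h.symm hyp) hac hx.1.symm hx.2.2.symm hy.1.symm hy.2.2.symm hxy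
      · exact h.four (h.symm Aac) (h.symm Abc) (h.symm hxp) (h.symm hyp) hab hx.1.symm hx.2.1.symm hy.1.symm hy.2.1.symm hxy
    have hin : ∀ x, x ∉ ({a, b, c} : Finset ℕ) → ∀ y, A x y → y ∈ ({a, b, c} : Finset ℕ) := by
      intro x hx y hxy
      by_contra hy
      obtain ⟨p, hp, h1, h2⟩ := hO2 x y hx hy hxy
      exact key x y p hx hy (h.ne hxy) hp h1 h2
    have hall : ∀ x ∈ V, x ∉ ({a, b, c} : Finset ℕ) → A x a := by
      intro x hxV hx
      obtain ⟨y1, y2, y3, h12, h13, h23, h5, h6, h7, -⟩ := h.deg x hxV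
      have m1 := (hmem y1).1 (hin x hx y1 h5)
      have m2 := (hmem y2).1 (hin x hx y2 h6)
      have m3 := (hmem y3).1 (hin x hx y3 h7)
      have : y1 = a ∨ y2 = a ∨ y3 = a := by omega
      rcases this with rfl | rfl | rfl <;> assumption
    have h1 : (V \ {a, b, c}).card ≤ 1 := by
      rw [Finset.card_le_one]
      intro x hx y hy
      rw [Finset.mem_sdiff] at hx hy
      by_contra hxy
      exact key x y a hx.2 hy.2 hxy ma (hall x hx.1 hx.2) (hall y hy.1 hy.2)
    have h2 := Finset.card_le_card_sdiff_add_card (s := V) (t := ({a, b, c} : Finset ℕ))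
    omega
  · obtain ⟨Q, hQ, hQc⟩ := Finset.exists_subset_card_eq h4
    obtain ⟨u, v, w, z, huv, huw, huz, hvw, hvz, hwz, rfl⟩ := Finset.card_eq_four.1 hQc
    have mu : u ∈ P := hQ (by simp)
    have mv : v ∈ P := hQ (by simp)
    have mw : w ∈ P := hQ (by simp)
    have mz : z ∈ P := hQ (by simp)
    refine h.kite hO1 hO2 (fun a ha b hb c hc hab _ _ => Or.inl (hP a ha b hb hab)) ?_ mu mv mw mz hwz
      (hP u mu v mv huv) (hP u mu w mw huw) (hP v mv w mw hvw) (hP u mu z mz huz) (hP v mv z mz hvz)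
    intro R hR hne hRP
    obtain ⟨a, ha⟩ := hne
    obtain ⟨b, hb, hbR⟩ : ∃ b ∈ P, b ∉ R := by
      by_contra hcon
      push Not at hcon
      exact hRP (Finset.Subset.antisymm hR hcon)
    refine ⟨a, ha, b, hb, hbR, hP a (hR ha) b hb ?_⟩
    rintro rfl
    exact hbR ha

/-- **Seven or more primes.** -/
theorem big (h : Cub A V) {P : Finset ℕ} (hPV : P ⊆ V)
    (hI : ∀ a ∈ P, ∀ b ∈ P, ∀ c ∈ P, a ≠ b → b ≠ c → a ≠ c → A a b ∨ A b c ∨ A a c)
    (hC : ∀ Q ⊆ P, Q.Nonempty → Q ≠ P → ∃ a ∈ Q, ∃ b ∈ P, b ∉ Q ∧ A a b) : P.card ≤ 6 := by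
  classical
  by_contra h7
  push Not at h7
  have hdeg : ∀ v ∈ P, ∀ N : Finset ℕ, (∀ x ∈ N, A v x) → N.card ≤ 3 := by
    intro v hv N hN
    obtain ⟨x, y, z, -, -, -, -, -, -, hall⟩ := h.deg v (hPV hv)
    have h1 : N ⊆ {x, y, z} := by
      intro w hw
      simpa using hall w (hN w hw)
    exact (Finset.card_le_card h1).trans Finset.card_le_three
  have hM : ∀ v ∈ P, ((P.erase v).filter fun x => ¬ A v x).card ≤ 3 := by
    intro v hv
    by_contra hcon
    push Not at hcon
    obtain ⟨Q, hQ, hQc⟩ := Finset.exists_subset_card_eq (show 4 ≤ ((P.erase v).filter fun x => ¬ A v x).card by omega)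
    have hQ' : ∀ x ∈ Q, x ∈ P ∧ x ≠ v ∧ ¬ A v x := by
      intro x hx
      have := hQ hx
      rw [Finset.mem_filter, Finset.mem_erase] at this
      exact ⟨this.1.2, this.1.1, this.2⟩
    have hQcl : ∀ x ∈ Q, ∀ y ∈ Q, x ≠ y → A x y := by
      intro x hx y hy hxy
      obtain ⟨h1, h2, h3⟩ := hQ' x hx
      obtain ⟨h4, h5, h6⟩ := hQ' y hy
      rcases hI v hv x h1 y h4 h2.symm hxy h5.symm with h8 | h8 | h8
      · exact absurd h8 h3
      · exact h8
      · exact absurd h8 h6
    obtain ⟨a, ha, b, hb, hbQ, hab⟩ := hC Q (fun x hx => (hQ' x hx).1) (Finset.card_pos.1 (by omega)) (by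
      rintro rfl
      exact (hQ' v hv).2.1 rfl)
    have h1 : (insert b (Q.erase a)).card = 4 := by
      rw [Finset.card_insert_of_notMem, Finset.card_erase_of_mem ha, hQc]
      intro h2
      exact hbQ (Finset.mem_of_mem_erase h2)
    have h2 := hdeg a (hQ' a ha).1 (insert b (Q.erase a)) (by
      intro x hx
      rw [Finset.mem_insert, Finset.mem_erase] at hx
      rcases hx with rfl | hx
      · exact hab
      · exact hQcl a ha x hx.2 hx.1.symm)
    omega
  have hN : ∀ v ∈ P, ((P.erase v).filter fun x => A v x).card = 3 ∧ P.card = 7 := by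
    intro v hv
    have h1 := hdeg v hv ((P.erase v).filter fun x => A v x) fun x hx => (Finset.mem_filter.1 hx).2
    have h2 := hM v hv
    have h3 := Finset.card_filter_add_card_filter_not (s := P.erase v) (p := fun x => A v x)
    rw [Finset.card_erase_of_mem hv] at h3
    omega
  have hcl : ∀ v ∈ P, ∀ w, A v w → w ∈ P := by
    intro v hv w hw
    obtain ⟨x, y, z, hxy, hxz, hyz, he⟩ := Finset.card_eq_three.1 (hN v hv).1
    have hm : ∀ t, t ∈ ((P.erase v).filter fun x => A v x) ↔ t = x ∨ t = y ∨ t = z := by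
      intro t
      rw [he]
      simp
    have hx := Finset.mem_filter.1 ((hm x).2 (Or.inl rfl))
    have hy := Finset.mem_filter.1 ((hm y).2 (Or.inr (Or.inl rfl)))
    have hz := Finset.mem_filter.1 ((hm z).2 (Or.inr (Or.inr rfl)))
    rcases h.only hx.2 hy.2 hz.2 hxy hxz hyz hw with rfl | rfl | rfl
    · exact Finset.mem_of_mem_erase hx.1
    · exact Finset.mem_of_mem_erase hy.1
    · exact Finset.mem_of_mem_erase hz.1
  have hP : Cub (fun a b => a ∈ P ∧ A a b) P := by
    refine ⟨fun {a b} hab => ⟨hcl a hab.1 b hab.2, h.symm hab.2⟩, fun a ha => h.irr a ha.2, fun {a b} hab => hab.1, ?_⟩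
    intro a ha
    obtain ⟨x, y, z, hxy, hxz, hyz, hx, hy, hz, hall⟩ := h.deg a (hPV ha)
    exact ⟨x, y, z, hxy, hxz, hyz, ⟨ha, hx⟩, ⟨ha, hy⟩, ⟨ha, hz⟩, fun w hw => hall w hw.2⟩
  have h1 := hP.even
  obtain ⟨v, hv⟩ : P.Nonempty := Finset.card_pos.1 (by omega)
  rw [(hN v hv).2] at h1
  exact absurd h1 (by decide)

end Cub

end Cfsg.Agent.H670.Reg
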