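import Cfsg.Agent.H670.Reg.Comb

/-!
# 3-regular degree graphs (S4919): combinatorics for `PSL(2,q)` (helper670)

* `evenA`, `evenB` : `q ≥ 16` even; `oddC` : `q ≥ 7` odd; `smallD` : `q = 4, 5, 8`.
-/

set_option autoImplicit false

namespace Cfsg.Agent.H670.Reg.Cub

variable {R : ℕ → ℕ → Prop} {V : Finset ℕ}

/-- at most three neighbours -/
theorem le3 (h : Cub R V) {v : ℕ} (N : Finset ℕ) (hN : ∀ x ∈ N, R v x) : N.card ≤ 3 := by
  classical
  rcases N.eq_empty_or_nonempty with h0 | ⟨y, hy⟩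
  · rw [h0]; exact Nat.zero_le _
  obtain ⟨x, y, z, -, -, -, -, -, -, hall⟩ := h.deg v (h.mem (hN y hy))
  have h1 : N ⊆ {x, y, z} := by
    intro w hw
    simpa using hall w (hN w hw)
  exact (Finset.card_le_card h1).trans Finset.card_le_three

section even

variable {A B : Finset ℕ}

theorem card_union' (hAB : Disjoint A B) : (A ∪ B).card = A.card + B.card := Finset.card_union_of_disjoint hAB

/-- **`q` even, below `K ^ ∞` not simple.** -/
theorem evenA (h : Cub R V) (h2A : 2 ∉ A) (h2B : 2 ∉ B) (hAB : Disjoint A B)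
    (hA : A.Nonempty) (hB : B.Nonempty) (h3 : 3 ≤ A.card + B.card) (clA : ∀ a ∈ A, ∀ b ∈ A, a ≠ b → R a b)
    (clB : ∀ a ∈ B, ∀ b ∈ B, a ≠ b → R a b)
    (hO : ∀ x ∈ V, x ≠ 2 → x ∉ A → x ∉ B →
      ((∀ a ∈ A, R x a) ∧ ∀ b ∈ B, R x b) ∨ (R x 2 ∧ ∀ b ∈ B, R x b ∧ R 2 b) ∨ (R x 2 ∧ ∀ a ∈ A, R x a ∧ R 2 a) ∨
      ∃ a ∈ A, ∃ b ∈ B, R x 2 ∧ R x a ∧ R x b ∧ R 2 a ∧ R 2 b ∧ R a b)
    (hX : (∀ a ∈ A, ∀ b ∈ B, R a b) ∨ ∃ x ∈ A, R 2 x ∧ ∀ b ∈ B, R 2 b ∧ R x b) : V.card ≤ 5 := by
  classical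
  have hu := card_union' hAB
  have hP : (insert 2 (A ∪ B)).card = A.card + B.card + 1 := by
    rw [Finset.card_insert_of_notMem, hu]
    rw [Finset.mem_union]
    push Not
    exact ⟨h2A, h2B⟩
  have hmP : ∀ x, x ∈ V \ insert 2 (A ∪ B) ↔ x ∈ V ∧ x ≠ 2 ∧ x ∉ A ∧ x ∉ B := by
    intro x
    rw [Finset.mem_sdiff, Finset.mem_insert, Finset.mem_union]
    push Not
    rfl
  have hle := Finset.card_le_card_sdiff_add_card (s := V) (t := insert 2 (A ∪ B))
  rcases hX with hX | ⟨x0, hx0, h2x0, hX⟩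
  · -- `A ∪ B` is complete
    have hcl : ∀ a ∈ A ∪ B, ∀ b ∈ A ∪ B, a ≠ b → R a b := by
      intro a ha b hb hab
      rw [Finset.mem_union] at ha hb
      rcases ha with ha | ha <;> rcases hb with hb | hb
      · exact clA a ha b hb hab
      · exact hX a ha b hb
      · exact h.symm (hX b hb a ha)
      · exact clB a ha b hb hab
    obtain ⟨a0, ha0⟩ := hA
    have h4 : A.card + B.card ≤ 4 := by
      have h5 := h.le3 (v := a0) ((A ∪ B).erase a0) (fun x hx => by
        rw [Finset.mem_erase] at hx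
        exact hcl a0 (Finset.mem_union_left _ ha0) x hx.2 hx.1.symm)
      rw [Finset.card_erase_of_mem (Finset.mem_union_left _ ha0), hu] at h5
      omega
    -- no element of `A ∪ B` has two neighbours outside
    have key : ∀ c ∈ A ∪ B, ∀ x y, x ≠ y → x ∉ A ∪ B → y ∉ A ∪ B → R c x → R c y → False := by
      intro c hc x y hxy hx hy hcx hcy
      have h5 := h.le3 (v := c) (insert x (insert y ((A ∪ B).erase c))) (fun z hz => by
        rw [Finset.mem_insert, Finset.mem_insert, Finset.mem_erase] at hz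
        rcases hz with rfl | rfl | hz
        · exact hcx
        · exact hcy
        · exact hcl c hc z hz.2 hz.1.symm)
      rw [Finset.card_insert_of_notMem, Finset.card_insert_of_notMem, Finset.card_erase_of_mem hc, hu] at h5
      · omega
      · intro h6; exact hy (Finset.mem_of_mem_erase h6)
      · rw [Finset.mem_insert]
        rintro (h6 | h6)
        · exact hxy h6
        · exact hx (Finset.mem_of_mem_erase h6)
    have h2AB : 2 ∉ A ∪ B := by
      rw [Finset.mem_union]; push Not; exact ⟨h2A, h2B⟩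
    have hout : ∀ x ∈ V \ insert 2 (A ∪ B), x ∉ A ∪ B ∧ ∀ c ∈ A ∪ B, R x c := by
      intro x hx
      obtain ⟨hxV, hx2, hxA, hxB⟩ := (hmP x).1 hx
      have hxAB : x ∉ A ∪ B := by
        rw [Finset.mem_union]; push Not; exact ⟨hxA, hxB⟩
      refine ⟨hxAB, ?_⟩
      rcases hO x hxV hx2 hxA hxB with ⟨h5, h6⟩ | ⟨h5, h6⟩ | ⟨h5, h6⟩ | ⟨a, ha, b, hb, h5, h6, h7, h8, h9, -⟩
      · intro c hc
        rw [Finset.mem_union] at hc
        rcases hc with hc | hc
        · exact h5 c hc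
        · exact h6 c hc
      · obtain ⟨b, hb⟩ := hB
        exact absurd (h.symm (h6 b hb).1) fun h7 =>
          key b (Finset.mem_union_right _ hb) x 2 hx2 hxAB h2AB h7 (h.symm (h6 b hb).2)
      · exact absurd (h.symm (h6 a0 ha0).1) fun h7 =>
          key a0 (Finset.mem_union_left _ ha0) x 2 hx2 hxAB h2AB h7 (h.symm (h6 a0 ha0).2)
      · exact absurd (h.symm h6) fun h10 =>
          key a (Finset.mem_union_left _ ha) x 2 hx2 hxAB h2AB h10 (h.symm h8)
    have h1 : (V \ insert 2 (A ∪ B)).card ≤ 1 := by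
      rw [Finset.card_le_one]
      intro x hx y hy
      by_contra hxy
      have hx' := hout x hx
      have hy' := hout y hy
      have m := Finset.mem_union_left B ha0
      exact key a0 m x y hxy hx'.1 hy'.1 (h.symm (hx'.2 a0 m)) (h.symm (hy'.2 a0 m))
    by_cases h5 : A.card + B.card = 4
    · have h6 : V \ insert 2 (A ∪ B) = ∅ := by
        rw [Finset.eq_empty_iff_forall_notMem]
        intro x hx
        have h7 := h.le3 (v := x) (A ∪ B) (hout x hx).2
        rw [hu] at h7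
        omega
      rw [h6, Finset.card_empty] at hle
      omega
    · omega
  · -- `2, x0, B` is complete
    have hx0B : x0 ∉ B := fun h5 => Finset.disjoint_left.1 hAB hx0 h5
    have hx02 : x0 ≠ 2 := by rintro rfl; exact h2A hx0
    -- the neighbours of `x0`
    have hN : ∀ z ∈ insert 2 ((A ∪ B).erase x0), R x0 z := by
      intro z hz
      rw [Finset.mem_insert, Finset.mem_erase, Finset.mem_union] at hz
      rcases hz with rfl | ⟨hz, hz' | hz'⟩
      · exact h.symm h2x0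
      · exact clA x0 hx0 z hz' hz.symm
      · exact (hX z hz').2
    have h2AB : 2 ∉ (A ∪ B).erase x0 := by
      rw [Finset.mem_erase, Finset.mem_union]
      rintro ⟨-, h5 | h5⟩
      · exact h2A h5
      · exact h2B h5
    have hNc : (insert 2 ((A ∪ B).erase x0)).card = A.card + B.card := by
      rw [Finset.card_insert_of_notMem h2AB, Finset.card_erase_of_mem (Finset.mem_union_left _ hx0), hu]
      omega
    have h4 := h.le3 (v := x0) _ hN
    rw [hNc] at h4
    -- an outside vertex is not joined to `x0`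
    have key : ∀ x, x ≠ 2 → x ∉ A → x ∉ B → ¬ R x x0 := by
      intro x hx2 hxA hxB hx
      have h5 := h.le3 (v := x0) (insert x (insert 2 ((A ∪ B).erase x0))) (fun z hz => by
        rw [Finset.mem_insert] at hz
        rcases hz with rfl | hz
        · exact h.symm hx
        · exact hN z hz)
      rw [Finset.card_insert_of_notMem, hNc] at h5
      · omega
      · rw [Finset.mem_insert, Finset.mem_erase, Finset.mem_union]
        rintro (h6 | ⟨-, h6 | h6⟩)
        · exact hx2 h6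
        · exact hxA h6
        · exact hxB h6
    have hT2 : ∀ x ∈ V \ insert 2 (A ∪ B), x ≠ 2 ∧ x ∉ A ∧ x ∉ B ∧ ∀ b ∈ B, R x b := by
      intro x hx
      obtain ⟨hxV, hx2, hxA, hxB⟩ := (hmP x).1 hx
      refine ⟨hx2, hxA, hxB, ?_⟩
      rcases hO x hxV hx2 hxA hxB with ⟨h5, h6⟩ | ⟨h5, h6⟩ | ⟨h5, h6⟩ | ⟨a, ha, b, hb, h5, h6, h7, h8, h9, h10⟩
      · exact h6
      · exact fun b hb => (h6 b hb).1
      · exact absurd (h6 x0 hx0).1 (key x hx2 hxA hxB)
      · exfalso
        by_cases hax : a = x0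
        · subst hax
          exact key x hx2 hxA hxB h6
        · have hbx0 : b ≠ x0 := by rintro rfl; exact hx0B hb
          have hab : a ≠ b := by rintro rfl; exact Finset.disjoint_left.1 hAB ha hb
          have hb2 : b ≠ 2 := by rintro rfl; exact h2B hb
          have ha2 : a ≠ 2 := by rintro rfl; exact h2A ha
          have hax' : a ≠ x := by rintro rfl; exact hxA ha
          have hx0x : x0 ≠ x := by rintro rfl; exact hxA hx0
          exact h.four (v := b) (x := 2) (y := x0) (z := a) (w := x) (h.symm (hX b hb).1) (h.symm (hX b hb).2)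
            (h.symm h10) (h.symm h7) hx02.symm ha2.symm (Ne.symm hax) hx2.symm hx0x hax'
    have h1 : (V \ insert 2 (A ∪ B)).card ≤ 1 := by
      rw [Finset.card_le_one]
      intro x hx y hy
      by_contra hxy
      obtain ⟨hx2, hxA, hxB, hx'⟩ := hT2 x hx
      obtain ⟨hy2, hyA, hyB, hy'⟩ := hT2 y hy
      obtain ⟨b, hb⟩ := hB
      have hx0x : x0 ≠ x := by rintro rfl; exact hxA hx0
      have hx0y : x0 ≠ y := by rintro rfl; exact hyA hx0
      exact h.four (v := b) (x := 2) (y := x0) (z := x) (w := y) (h.symm (hX b hb).1) (h.symm (hX b hb).2)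
        (h.symm (hx' b hb)) (h.symm (hy' b hb)) hx02.symm hx2.symm hx0x hy2.symm hx0y hxy
    omega

/-- **`q` even, `K = N × R`.** -/
theorem evenB (h : Cub R V) (h2V : 2 ∈ V) (h2A : 2 ∉ A) (h2B : 2 ∉ B) (hAB : Disjoint A B)
    (h3 : 3 ≤ A.card + B.card) (clA : ∀ a ∈ A, ∀ b ∈ A, a ≠ b → R a b)
    (clB : ∀ a ∈ B, ∀ b ∈ B, a ≠ b → R a b) (sp : ℕ → Prop)
    (hs : ∀ t ∈ V, sp t → ∀ c ∈ A ∪ B, c ≠ t → R t c)
    (hO : ∀ x ∈ V, x ≠ 2 → x ∉ A → x ∉ B → sp x) (h2 : ∀ p, R 2 p → sp 2 ∨ sp p) : V.card ≤ 5 := by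
  classical
  by_contra h6
  push Not at h6
  have hu := card_union' hAB
  have h2AB : 2 ∉ A ∪ B := by
    rw [Finset.mem_union]; push Not; exact ⟨h2A, h2B⟩
  have hP : (insert 2 (A ∪ B)).card = A.card + B.card + 1 := by
    rw [Finset.card_insert_of_notMem h2AB, hu]
  have hmP : ∀ x, x ∈ V \ insert 2 (A ∪ B) ↔ x ∈ V ∧ x ≠ 2 ∧ x ∉ A ∧ x ∉ B := by
    intro x
    rw [Finset.mem_sdiff, Finset.mem_insert, Finset.mem_union]
    push Not
    rfl
  have hle := Finset.card_le_card_sdiff_add_card (s := V) (t := insert 2 (A ∪ B))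
  obtain ⟨p, -, -, -, -, -, hp, -, -, -⟩ := h.deg 2 h2V
  have hp2 := (h.ne hp).symm
  have hpV := h.mem (h.symm hp)
  have hout : ∀ x ∈ V \ insert 2 (A ∪ B), x ∉ A ∪ B ∧ ∀ c ∈ A ∪ B, R x c := by
    intro x hx
    obtain ⟨hxV, hx2, hxA, hxB⟩ := (hmP x).1 hx
    have hxAB : x ∉ A ∪ B := by
      rw [Finset.mem_union]; push Not; exact ⟨hxA, hxB⟩
    refine ⟨hxAB, fun c hc => hs x hxV (hO x hxV hx2 hxA hxB) c hc ?_⟩
    rintro rfl
    exact hxAB hc
  by_cases hVP : V \ insert 2 (A ∪ B) = ∅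
  · -- `V = P`
    rw [hVP, Finset.card_empty] at hle
    rcases h2 p hp with h5 | h5
    · have h7 := h.le3 (v := 2) (A ∪ B) (fun c hc => hs 2 h2V h5 c hc (by rintro rfl; exact h2AB hc))
      rw [hu] at h7
      omega
    · have hpAB : p ∈ A ∪ B := by
        by_contra hpn
        have : p ∈ V \ insert 2 (A ∪ B) := by
          rw [Finset.mem_sdiff, Finset.mem_insert]
          push Not
          exact ⟨hpV, hp2, hpn⟩
        rw [hVP] at this
        exact absurd this (Finset.notMem_empty _)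
      have h7 := h.le3 (v := p) ((A ∪ B).erase p) (fun c hc => by
        rw [Finset.mem_erase] at hc
        exact hs p hpV h5 c hc.2 hc.1)
      rw [Finset.card_erase_of_mem hpAB, hu] at h7
      omega
  · obtain ⟨x, hx⟩ := Finset.nonempty_iff_ne_empty.2 hVP
    have hx' := hout x hx
    have h3' : A.card + B.card = 3 := by
      have h7 := h.le3 (v := x) (A ∪ B) hx'.2
      rw [hu] at h7
      omega
    have h1 : 1 < (V \ insert 2 (A ∪ B)).card := by omega
    obtain ⟨x, hx, y, hy, hxy⟩ := Finset.one_lt_card.1 h1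
    obtain ⟨hxn, hxc⟩ := hout x hx
    obtain ⟨hyn, hyc⟩ := hout y hy
    obtain ⟨-, hx2, -, -⟩ := (hmP x).1 hx
    obtain ⟨-, hy2, -, -⟩ := (hmP y).1 hy
    -- two elements of the same part
    obtain ⟨c, c', hc, hc', hcc, hRc⟩ : ∃ c c', c ∈ A ∪ B ∧ c' ∈ A ∪ B ∧ c ≠ c' ∧ R c c' := by
      have h8 : 1 < A.card ∨ 1 < B.card := by omega
      rcases h8 with h8 | h8
      · obtain ⟨c, hc, c', hc', hcc⟩ := Finset.one_lt_card.1 h8
        exact ⟨c, c', Finset.mem_union_left _ hc, Finset.mem_union_left _ hc', hcc, clA c hc c' hc' hcc⟩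
      · obtain ⟨c, hc, c', hc', hcc⟩ := Finset.one_lt_card.1 h8
        exact ⟨c, c', Finset.mem_union_right _ hc, Finset.mem_union_right _ hc', hcc, clB c hc c' hc' hcc⟩
    rcases h2 p hp with h5 | h5
    · have hc2 : R 2 c := hs 2 h2V h5 c hc (by rintro rfl; exact h2AB hc)
      have e1 : c' ≠ x := by rintro rfl; exact hxn hc'
      have e2 : c' ≠ y := by rintro rfl; exact hyn hc'
      have e3 : c' ≠ 2 := by rintro rfl; exact h2AB hc'
      exact h.four hRc (h.symm (hxc c hc)) (h.symm (hyc c hc)) (h.symm hc2) e1 e2 hxy e3 hx2 hy2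
    · by_cases hpAB : p ∈ A ∪ B
      · have h7 := h.le3 (v := p) (insert x (insert y ((A ∪ B).erase p))) (fun z hz => by
          rw [Finset.mem_insert, Finset.mem_insert, Finset.mem_erase] at hz
          rcases hz with rfl | rfl | hz
          · exact h.symm (hxc p hpAB)
          · exact h.symm (hyc p hpAB)
          · exact hs p hpV h5 z hz.2 hz.1)
        rw [Finset.card_insert_of_notMem, Finset.card_insert_of_notMem, Finset.card_erase_of_mem hpAB, hu] at h7
        · omega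
        · intro h8; exact hyn (Finset.mem_of_mem_erase h8)
        · rw [Finset.mem_insert]
          rintro (h8 | h8)
          · exact hxy h8
          · exact hxn (Finset.mem_of_mem_erase h8)
      · have hp' := hout p (by
          rw [Finset.mem_sdiff, Finset.mem_insert]
          push Not
          exact ⟨hpV, hp2, hpAB⟩)
        have h7 := h.le3 (v := p) (insert 2 (A ∪ B)) (fun z hz => by
          rw [Finset.mem_insert] at hz
          rcases hz with rfl | hz
          · exact h.symm hp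
          · exact hp'.2 z hz)
        rw [hP] at h7
        omega

end even

/-- **`q ≥ 7` odd.** -/
theorem oddC (h : Cub R V) {p : ℕ} {C : Finset ℕ} (hp2 : p ≠ 2) (h2C : 2 ∉ C) (hpC : p ∉ C)
    (hCn : C.Nonempty) (hC2 : ∀ c ∈ C, R 2 c)
    (hO : ∀ x ∈ V, x ≠ 2 → x ≠ p → x ∉ C →
      (∃ a b, (a = 2 ∨ a = p ∨ a ∈ C) ∧ (b = 2 ∨ b = p ∨ b ∈ C) ∧ a ≠ b ∧ R x a ∧ R x b ∧ R a b) ∧
      (R x 2 ∨ (R x p ∧ (∀ c ∈ C, R x c ∧ R p c) ∧ ∀ c ∈ C, ∀ c' ∈ C, c ≠ c' → R c c'))) : V.card ≤ 5 := by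
  classical
  by_contra h6
  push Not at h6
  set O := (V \ insert 2 (insert p C)) with hOd
  have hmO : ∀ x, x ∈ O ↔ x ∈ V ∧ x ≠ 2 ∧ x ≠ p ∧ x ∉ C := by
    intro x
    rw [hOd, Finset.mem_sdiff, Finset.mem_insert, Finset.mem_insert]
    push Not
    rfl
  have hle := Finset.card_le_card_sdiff_add_card (s := V) (t := insert 2 (insert p C))
  rw [← hOd] at hle
  have hPc : (insert 2 (insert p C)).card = C.card + 2 := by
    rw [Finset.card_insert_of_notMem, Finset.card_insert_of_notMem hpC]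
    rw [Finset.mem_insert]
    rintro (h7 | h7)
    · exact hp2 h7.symm
    · exact h2C h7
  have hsplit := Finset.card_filter_add_card_filter_not (s := O) (p := fun x => R x 2)
  -- neighbours of 2
  have h2N := h.le3 (v := 2) (C ∪ O.filter fun x => R x 2) (fun z hz => by
    rw [Finset.mem_union, Finset.mem_filter] at hz
    rcases hz with hz | hz
    · exact hC2 z hz
    · exact h.symm hz.2)
  rw [Finset.card_union_of_disjoint (by
    rw [Finset.disjoint_left]
    intro z hz hz'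
    exact ((hmO z).1 (Finset.mem_filter.1 hz').1).2.2.2 hz)] at h2N
  obtain ⟨x, hx⟩ : (O.filter fun x => ¬ R x 2).Nonempty := Finset.card_pos.1 (by omega)
  rw [Finset.mem_filter] at hx
  obtain ⟨hxV, hx2, hxp, hxC⟩ := (hmO x).1 hx.1
  obtain ⟨hxp', hxC', hCC⟩ : R x p ∧ (∀ c ∈ C, R x c ∧ R p c) ∧ ∀ c ∈ C, ∀ c' ∈ C, c ≠ c' → R c c' := by
    rcases (hO x hxV hx2 hxp hxC).2 with h7 | h7
    · exact absurd h7 hx.2
    · exact h7
  obtain ⟨c, hc⟩ := hCn
  have hc2 : c ≠ 2 := by rintro rfl; exact h2C hc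
  have hcp : c ≠ p := by rintro rfl; exact hpC hc
  have hcx : c ≠ x := by rintro rfl; exact hxC hc
  have Nc1 := h.symm (hC2 c hc)
  have Nc2 := h.symm (hxC' c hc).2
  have Nc3 := h.symm (hxC' c hc).1
  have Nc : ∀ w, R c w → w = 2 ∨ w = p ∨ w = x := fun w hw => h.only Nc1 Nc2 Nc3 hp2.symm hx2.symm hxp.symm hw
  have hCc : C = {c} := by
    rw [Finset.eq_singleton_iff_unique_mem]
    refine ⟨hc, fun c' hc' => ?_⟩
    by_contra hne
    rcases Nc c' (hCC c hc c' hc' (Ne.symm hne)) with h7 | h7 | h7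
    · exact h2C (h7 ▸ hc')
    · exact hpC (h7 ▸ hc')
    · exact hxC (h7 ▸ hc')
  have hO2 : (O.filter fun x => ¬ R x 2).card ≤ 1 := by
    rw [Finset.card_le_one]
    have key : ∀ y ∈ O.filter fun x => ¬ R x 2, y = x := by
      intro y hy
      rw [Finset.mem_filter] at hy
      obtain ⟨hyV, hy2, hyp, hyC⟩ := (hmO y).1 hy.1
      rcases (hO y hyV hy2 hyp hyC).2 with h7 | ⟨-, h7, -⟩
      · exact absurd h7 hy.2
      · rcases Nc y (h.symm (h7 c hc).1) with h8 | h8 | h8
        · exact absurd h8 hy2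
        · exact absurd h8 hyp
        · exact h8
    intro y hy z hz
    rw [key y hy, key z hz]
  have hC1 : C.card = 1 := by rw [hCc, Finset.card_singleton]
  obtain ⟨y, hy, z, hz, hyz⟩ := Finset.one_lt_card.1 (show 1 < (O.filter fun x => R x 2).card by omega)
  rw [Finset.mem_filter] at hy hz
  obtain ⟨hyV, hy2, hyp, hyC⟩ := (hmO y).1 hy.1
  obtain ⟨hzV, hz2, hzp, hzC⟩ := (hmO z).1 hz.1
  have hcy : c ≠ y := by rintro rfl; exact hyC hc
  have hcz : c ≠ z := by rintro rfl; exact hzC hc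
  have h2p : ¬ R 2 p := by
    intro h7
    exact h.four (hC2 c hc) (h.symm hy.2) (h.symm hz.2) h7 hcy hcz hyz hcp hyp hzp
  have hyx : y ≠ x := by rintro rfl; exact hx.2 hy.2
  have hyc : ¬ R y c := by
    intro h7
    rcases Nc y (h.symm h7) with h8 | h8 | h8
    · exact hy2 h8
    · exact hyp h8
    · exact hyx h8
  have hmC : ∀ t, t ∈ C → t = c := by
    intro t ht
    rw [hCc, Finset.mem_singleton] at ht
    exact ht
  obtain ⟨⟨a, b, ha, hb, hab, h7, h8, h9⟩, -⟩ := hO y hyV hy2 hyp hyC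
  have ha' : a = 2 ∨ a = p := by
    rcases ha with ha | ha | ha
    · exact Or.inl ha
    · exact Or.inr ha
    · rw [hmC a ha] at h7
      exact absurd h7 hyc
  have hb' : b = 2 ∨ b = p := by
    rcases hb with hb | hb | hb
    · exact Or.inl hb
    · exact Or.inr hb
    · rw [hmC b hb] at h8
      exact absurd h8 hyc
  rcases ha' with rfl | rfl <;> rcases hb' with rfl | rfl
  · exact hab rfl
  · exact h2p h9
  · exact h2p (h.symm h9)
  · exact hab rfl

/-- **`q = 4, 5, 8`.** -/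
theorem smallD (h : Cub R V) {P : Finset ℕ} (hP : P.card = 3) (rad : ℕ → Prop)
    (hpal : ∀ x y z, rad x → rad y → rad z → x ≠ y → y ≠ z → x ≠ z → R x y ∨ R y z ∨ R x z)
    (hO : ∀ x ∈ V, x ∉ P → (∃ a ∈ P, ∃ b ∈ P, a ≠ b ∧ R x a ∧ R x b ∧ R a b) ∨ ((∀ a ∈ P, R x a) ∧ rad x)) :
    V.card ≤ 5 := by
  classical
  by_contra h6
  push Not at h6
  have hle := Finset.card_le_card_sdiff_add_card (s := V) (t := P)
  have h3 : 2 < (V \ P).card := by omega
  obtain ⟨x, y, z, hx, hy, hz, hxy, hxz, hyz⟩ := Finset.two_lt_card_iff.1 h3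
  rw [Finset.mem_sdiff] at hx hy hz
  -- if some edge inside `P`
  by_cases hE : ∃ a ∈ P, ∃ b ∈ P, a ≠ b ∧ R a b
  · obtain ⟨a, ha, b, hb, hab, hRab⟩ := hE
    obtain ⟨c, hc⟩ : ((P.erase a).erase b).Nonempty := by
      apply Finset.card_pos.1
      rw [Finset.card_erase_of_mem (Finset.mem_erase.2 ⟨hab.symm, hb⟩), Finset.card_erase_of_mem ha, hP]
      norm_num
    rw [Finset.mem_erase, Finset.mem_erase] at hc
    obtain ⟨hcb, hca, hcP⟩ := hc
    have hPabc : ∀ t ∈ P, t = a ∨ t = b ∨ t = c := by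
      intro t ht
      have h7 : ({a, b, c} : Finset ℕ) = P := by
        apply Finset.eq_of_subset_of_card_le
        · intro s hs
          simp only [Finset.mem_insert, Finset.mem_singleton] at hs
          rcases hs with rfl | rfl | rfl <;> assumption
        · rw [hP, Finset.card_insert_of_notMem, Finset.card_insert_of_notMem, Finset.card_singleton]
          · simpa using hcb.symm
          · simp only [Finset.mem_insert, Finset.mem_singleton]
            rintro (h8 | h8)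
            · exact hab h8
            · exact hca h8.symm
      rw [← h7] at ht
      simpa using ht
    have hn : ∀ u, u ∉ P → u ≠ a ∧ u ≠ b ∧ u ≠ c := by
      intro u hu
      refine ⟨?_, ?_, ?_⟩ <;> rintro rfl <;> contradiction
    obtain ⟨xa, xb, xc⟩ := hn x hx.2
    obtain ⟨ya, yb, yc⟩ := hn y hy.2
    obtain ⟨za, zb, zc⟩ := hn z hz.2
    -- every outside vertex is joined to two elements of `P`
    have hO' : ∀ u ∈ V, u ∉ P → (R a b ∧ R u a ∧ R u b) ∨ (R a c ∧ R u a ∧ R u c) ∨ (R b c ∧ R u b ∧ R u c) := by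
      intro u hu huP
      rcases hO u hu huP with ⟨s, hs, t, ht, hst, h7, h8, h9⟩ | ⟨h7, -⟩
      · rcases hPabc s hs with rfl | rfl | rfl <;> rcases hPabc t ht with rfl | rfl | rfl
        · exact absurd rfl hst
        · exact Or.inl ⟨h9, h7, h8⟩
        · exact Or.inr (Or.inl ⟨h9, h7, h8⟩)
        · exact Or.inl ⟨h.symm h9, h8, h7⟩
        · exact absurd rfl hst
        · exact Or.inr (Or.inr ⟨h9, h7, h8⟩)
        · exact Or.inr (Or.inl ⟨h.symm h9, h8, h7⟩)
        · exact Or.inr (Or.inr ⟨h.symm h9, h8, h7⟩)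
        · exact absurd rfl hst
      · exact Or.inl ⟨hRab, h7 a ha, h7 b hb⟩
    have ox := hO' x hx.1 hx.2
    have oy := hO' y hy.1 hy.2
    have oz := hO' z hz.1 hz.2
    -- forbidden configurations
    have F1 : ∀ {v s u1 u2 u3 : ℕ}, R v s → R u1 v → R u2 v → R u3 v → s ≠ u1 → s ≠ u2 → s ≠ u3 → u1 ≠ u2 → u1 ≠ u3 →
        u2 ≠ u3 → False := fun h1 h2 h3 h4 e1 e2 e3 e4 e5 e6 =>
      h.four h1 (h.symm h2) (h.symm h3) (h.symm h4) e1 e2 e4 e3 e5 e6
    have F2 : ∀ {v s t u1 u2 : ℕ}, R v s → R v t → R u1 v → R u2 v → s ≠ t → s ≠ u1 → s ≠ u2 → t ≠ u1 → t ≠ u2 →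
        u1 ≠ u2 → False := fun h1 h2 h3 h4 e1 e2 e3 e4 e5 e6 =>
      h.four h1 h2 (h.symm h3) (h.symm h4) e1 e2 e4 e3 e5 e6
    by_cases hac : R a c
    · -- `a` has one more neighbour
      have A1 : ∀ u w, u ≠ w → u ≠ b → u ≠ c → w ≠ b → w ≠ c → R u a → R w a → False :=
        fun u w h1 h2 h3 h4 h5 h6 h7 => F2 hRab hac h6 h7 hcb.symm h2.symm h4.symm h3.symm h5.symm h1
      by_cases hbc : R b c
      · have B1 : ∀ u w, u ≠ w → u ≠ a → u ≠ c → w ≠ a → w ≠ c → R u b → R w b → False :=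
          fun u w h1 h2 h3 h4 h5 h6 h7 => F2 (h.symm hRab) hbc h6 h7 hca.symm h2.symm h4.symm h3.symm h5.symm h1
        have C1 : ∀ u w, u ≠ w → u ≠ a → u ≠ b → w ≠ a → w ≠ b → R u c → R w c → False :=
          fun u w h1 h2 h3 h4 h5 h6 h7 => F2 (h.symm hac) (h.symm hbc) h6 h7 hab h2.symm h4.symm h3.symm h5.symm h1
        rcases ox with ⟨-, p1, p2⟩ | ⟨-, p1, p2⟩ | ⟨-, p1, p2⟩ <;> rcases oy with ⟨-, q1, q2⟩ | ⟨-, q1, q2⟩ | ⟨-, q1, q2⟩
        · exact A1 x y hxy xb xc yb yc p1 q1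
        · exact A1 x y hxy xb xc yb yc p1 q1
        · exact B1 x y hxy xa xc ya yc p2 q1
        · exact A1 x y hxy xb xc yb yc p1 q1
        · exact A1 x y hxy xb xc yb yc p1 q1
        · exact C1 x y hxy xa xb ya yb p2 q2
        · exact B1 x y hxy xa xc ya yc p1 q2
        · exact C1 x y hxy xa xb ya yb p2 q2
        · exact B1 x y hxy xa xc ya yc p1 q1
      · rcases ox with ⟨-, p1, p2⟩ | ⟨-, p1, p2⟩ | ⟨p0, p1, p2⟩
        · rcases oy with ⟨-, q1, q2⟩ | ⟨-, q1, q2⟩ | ⟨q0, q1, q2⟩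
          · exact A1 x y hxy xb xc yb yc p1 q1
          · exact A1 x y hxy xb xc yb yc p1 q1
          · exact hbc q0
        · rcases oy with ⟨-, q1, q2⟩ | ⟨-, q1, q2⟩ | ⟨q0, q1, q2⟩
          · exact A1 x y hxy xb xc yb yc p1 q1
          · exact A1 x y hxy xb xc yb yc p1 q1
          · exact hbc q0
        · exact hbc p0
    · by_cases hbc : R b c
      · have B1 : ∀ u w, u ≠ w → u ≠ a → u ≠ c → w ≠ a → w ≠ c → R u b → R w b → False :=
          fun u w h1 h2 h3 h4 h5 h6 h7 => F2 (h.symm hRab) hbc h6 h7 hca.symm h2.symm h4.symm h3.symm h5.symm h1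
        rcases ox with ⟨-, p1, p2⟩ | ⟨p0, p1, p2⟩ | ⟨-, p1, p2⟩
        · rcases oy with ⟨-, q1, q2⟩ | ⟨q0, q1, q2⟩ | ⟨-, q1, q2⟩
          · exact B1 x y hxy xa xc ya yc p2 q2
          · exact hac q0
          · exact B1 x y hxy xa xc ya yc p2 q1
        · exact hac p0
        · rcases oy with ⟨-, q1, q2⟩ | ⟨q0, q1, q2⟩ | ⟨-, q1, q2⟩
          · exact B1 x y hxy xa xc ya yc p1 q2
          · exact hac q0
          · exact B1 x y hxy xa xc ya yc p1 q1
      · rcases ox with ⟨-, p1, p2⟩ | ⟨p0, -, -⟩ | ⟨p0, -, -⟩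
        · rcases oy with ⟨-, q1, q2⟩ | ⟨q0, -, -⟩ | ⟨q0, -, -⟩
          · rcases oz with ⟨-, r1, r2⟩ | ⟨r0, -, -⟩ | ⟨r0, -, -⟩
            · exact F1 hRab p1 q1 r1 xb.symm yb.symm zb.symm hxy hxz hyz
            · exact hac r0
            · exact hbc r0
          · exact hac q0
          · exact hbc q0
        · exact hac p0
        · exact hbc p0
  · -- no edge inside `P`
    push Not at hE
    have key : ∀ u ∈ V, u ∉ P → (∀ a ∈ P, R u a) ∧ rad u := by
      intro u hu huP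
      rcases hO u hu huP with ⟨s, hs, t, ht, hst, -, -, h9⟩ | h7
      · exact absurd h9 (hE s hs t ht hst)
      · exact h7
    have kx := key x hx.1 hx.2
    have ky := key y hy.1 hy.2
    have kz := key z hz.1 hz.2
    have big : ∀ u w, u ∉ P → w ∉ P → (∀ a ∈ P, R u a) → R u w → False := by
      intro u w hu hw h7 h8
      have h9 := h.le3 (v := u) (insert w P) (fun t ht => by
        rw [Finset.mem_insert] at ht
        rcases ht with rfl | ht
        · exact h8
        · exact h7 t ht)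
      rw [Finset.card_insert_of_notMem hw, hP] at h9
      omega
    rcases hpal x y z kx.2 ky.2 kz.2 hxy hyz hxz with h7 | h7 | h7
    · exact big x y hx.2 hy.2 kx.1 h7
    · exact big y z hy.2 hz.2 ky.1 h7
    · exact big x z hx.2 hz.2 kx.1 h7

end Cfsg.Agent.H670.Reg.Cub
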