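import Cfsg.Agent.H670.Reg.Comb
import Mathlib.Data.Fin.VecNotation
import Mathlib.Tactic.FinCases

/-!
# 3-regular degree graphs (S4919): combinatorics of the solvable case (helper670)

* `Cub.solv` : a 3-regular graph without three independent vertices has at most five vertices, or its complement is a
  hexagon, or it is the disjoint union of two complete graphs on four vertices.
-/

set_option autoImplicit false

namespace Cfsg.Agent.H670.Reg.Cub

variable {R : ℕ → ℕ → Prop} {V : Finset ℕ}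

/-- the neighbours -/
theorem nbr (h : Cub R V) {v : ℕ} (hv : v ∈ V) : ∃ N : Finset ℕ, N.card = 3 ∧ N ⊆ V ∧ v ∉ N ∧ ∀ w, w ∈ N ↔ R v w := by
  classical
  obtain ⟨x, y, z, hxy, hxz, hyz, hx, hy, hz, hall⟩ := h.deg v hv
  refine ⟨{x, y, z}, ?_, ?_, ?_, ?_⟩
  · rw [Finset.card_insert_of_notMem, Finset.card_insert_of_notMem, Finset.card_singleton]
    · simpa using hyz
    · simp [hxy, hxz]
  · intro w hw
    simp only [Finset.mem_insert, Finset.mem_singleton] at hw
    rcases hw with rfl | rfl | rfl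
    · exact h.mem (h.symm hx)
    · exact h.mem (h.symm hy)
    · exact h.mem (h.symm hz)
  · simp only [Finset.mem_insert, Finset.mem_singleton]
    rintro (rfl | rfl | rfl)
    · exact h.irr _ hx
    · exact h.irr _ hy
    · exact h.irr _ hz
  · intro w
    simp only [Finset.mem_insert, Finset.mem_singleton]
    constructor
    · rintro (rfl | rfl | rfl) <;> assumption
    · exact hall w

/-- the two vertices which are not adjacent (six vertices) -/
theorem two (h : Cub R V) (h6 : V.card = 6) {v : ℕ} (hv : v ∈ V) : ∃ x ∈ V, ∃ y ∈ V, x ≠ y ∧ v ≠ x ∧ v ≠ y ∧ ¬ R v x ∧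
    ¬ R v y ∧ ∀ z ∈ V, v ≠ z → ¬ R v z → z = x ∨ z = y := by
  classical
  obtain ⟨N, hN3, hNV, hvN, hN⟩ := h.nbr hv
  have h1 : (V \ insert v N).card = 2 := by
    rw [Finset.card_sdiff_of_subset (Finset.insert_subset hv hNV), Finset.card_insert_of_notMem hvN]
    omega
  obtain ⟨x, y, hxy, he⟩ := Finset.card_eq_two.1 h1
  have hm : ∀ z, z ∈ V \ insert v N ↔ z ∈ V ∧ v ≠ z ∧ ¬ R v z := by
    intro z
    rw [Finset.mem_sdiff, Finset.mem_insert, hN]
    constructor
    · rintro ⟨h2, h3⟩
      push Not at h3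
      exact ⟨h2, fun h => h3.1 h.symm, h3.2⟩
    · rintro ⟨h2, h3, h4⟩
      exact ⟨h2, by push Not; exact ⟨fun h => h3 h.symm, h4⟩⟩
  have hx := (hm x).1 (by rw [he]; simp)
  have hy := (hm y).1 (by rw [he]; simp)
  refine ⟨x, hx.1, y, hy.1, hxy, hx.2.1, hy.2.1, hx.2.2, hy.2.2, fun z hz hvz hR => ?_⟩
  have h2 := (hm z).2 ⟨hz, hvz, hR⟩
  rw [he] at h2
  simpa using h2

/-- the second vertex which is not adjacent (six vertices) -/
theorem other (h : Cub R V) (h6 : V.card = 6) {v w : ℕ} (hv : v ∈ V) (hw : w ∈ V) (hvw : v ≠ w) (hR : ¬ R v w) :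
    ∃ x ∈ V, x ≠ w ∧ v ≠ x ∧ ¬ R v x ∧ ∀ z ∈ V, v ≠ z → ¬ R v z → z = w ∨ z = x := by
  obtain ⟨x, hx, y, hy, hxy, hvx, hvy, hRx, hRy, hall⟩ := h.two h6 hv
  rcases hall w hw hvw hR with rfl | rfl
  · exact ⟨y, hy, hxy.symm, hvy, hRy, hall⟩
  · exact ⟨x, hx, hxy, hvx, hRx, fun z h1 h2 h3 => (hall z h1 h2 h3).symm⟩

/-- **six vertices** -/
theorem hex (h : Cub R V) (h6 : V.card = 6)
    (hp : ∀ a ∈ V, ∀ b ∈ V, ∀ c ∈ V, a ≠ b → b ≠ c → a ≠ c → R a b ∨ R b c ∨ R a c) :
    ∃ a : Fin 6 → ℕ, Function.Injective a ∧ (∀ p, (∃ i, a i = p) ↔ p ∈ V) ∧ ∀ i, ¬ R (a i) (a (i + 1)) := by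
  classical
  obtain ⟨a0, h0⟩ : V.Nonempty := Finset.card_pos.1 (by omega)
  obtain ⟨a1, h1, a5, h5, n15, n01, n05, r01, r05, all0⟩ := h.two h6 h0
  obtain ⟨a2, h2, n20, n12, r12, all1⟩ := h.other h6 h1 h0 n01.symm (fun h7 => r01 (h.symm h7))
  obtain ⟨a4, h4, n40, n54, r54, all5⟩ := h.other h6 h5 h0 n05.symm (fun h7 => r05 (h.symm h7))
  have r15 : R a1 a5 := by
    rcases hp a0 h0 a1 h1 a5 h5 n01 n15 n05 with h7 | h7 | h7
    · exact absurd h7 r01
    · exact h7
    · exact absurd h7 r05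
  have n25 : a2 ≠ a5 := by rintro rfl; exact r12 r15
  have n41 : a4 ≠ a1 := by rintro rfl; exact r54 (h.symm r15)
  have pick : ∀ S : Finset ℕ, S.card ≤ 5 → ∃ x ∈ V, x ∉ S := by
    intro S hS
    by_contra hcon
    push Not at hcon
    have h7 := Finset.card_le_card (show V ⊆ S from hcon)
    omega
  have n24 : a2 ≠ a4 := by
    rintro rfl
    have all2 : ∀ z ∈ V, a2 ≠ z → ¬ R a2 z → z = a1 ∨ z = a5 := by
      obtain ⟨w, hw, hw1, hw2, hw3, hw4⟩ := h.other h6 h2 h1 n12.symm (fun h7 => r12 (h.symm h7))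
      rcases hw4 a5 h5 n25 (fun h7 => r54 (h.symm h7)) with h7 | h7
      · exact absurd h7.symm n15
      · rw [← h7] at hw4
        exact hw4
    obtain ⟨x, hx, hxS⟩ := pick {a0, a1, a2, a5} ((Finset.card_le_four).trans (by norm_num))
    simp only [Finset.mem_insert, Finset.mem_singleton, not_or] at hxS
    obtain ⟨x0, x1, x2, x5⟩ := hxS
    obtain ⟨y, hy, z, hz, hyz, hxy, hxz, ryx, rzx, -⟩ := h.two h6 hx
    have key : ∀ y ∈ V, x ≠ y → ¬ R x y → y ≠ a0 ∧ y ≠ a1 ∧ y ≠ a2 ∧ y ≠ a5 := by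
      intro y hy hxy hR
      refine ⟨?_, ?_, ?_, ?_⟩
      · rintro rfl
        rcases all0 x hx hxy.symm (fun h7 => hR (h.symm h7)) with h7 | h7
        · exact x1 h7
        · exact x5 h7
      · rintro rfl
        rcases all1 x hx hxy.symm (fun h7 => hR (h.symm h7)) with h7 | h7
        · exact x0 h7
        · exact x2 h7
      · rintro rfl
        rcases all2 x hx hxy.symm (fun h7 => hR (h.symm h7)) with h7 | h7
        · exact x1 h7
        · exact x5 h7
      · rintro rfl
        rcases all5 x hx hxy.symm (fun h7 => hR (h.symm h7)) with h7 | h7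
        · exact x0 h7
        · exact x2 h7
    obtain ⟨y0, y1, y2, y5⟩ := key y hy hxy ryx
    obtain ⟨z0, z1, z2, z5⟩ := key z hz hxz rzx
    have h8 : ({a0, a1, a2, a5, x, y, z} : Finset ℕ).card ≤ 6 := by
      rw [← h6]
      apply Finset.card_le_card
      intro t ht
      simp only [Finset.mem_insert, Finset.mem_singleton] at ht
      rcases ht with rfl | rfl | rfl | rfl | rfl | rfl | rfl <;> assumption
    have h9 : ({a0, a1, a2, a5, x, y, z} : Finset ℕ).card = 7 := by
      rw [Finset.card_insert_of_notMem, Finset.card_insert_of_notMem, Finset.card_insert_of_notMem,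
        Finset.card_insert_of_notMem, Finset.card_insert_of_notMem, Finset.card_insert_of_notMem, Finset.card_singleton]
      · simpa using hyz
      · simp [hxy, hxz]
      · simp only [Finset.mem_insert, Finset.mem_singleton, not_or]
        exact ⟨fun h => x5 h.symm, fun h => y5 h.symm, fun h => z5 h.symm⟩
      · simp only [Finset.mem_insert, Finset.mem_singleton, not_or]
        exact ⟨n25, fun h => x2 h.symm, fun h => y2 h.symm, fun h => z2 h.symm⟩
      · simp only [Finset.mem_insert, Finset.mem_singleton, not_or]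
        exact ⟨n12, n15, fun h => x1 h.symm, fun h => y1 h.symm, fun h => z1 h.symm⟩
      · simp only [Finset.mem_insert, Finset.mem_singleton, not_or]
        exact ⟨n01, fun h => n20 h.symm, n05, fun h => x0 h.symm, fun h => y0 h.symm, fun h => z0 h.symm⟩
    omega
  obtain ⟨a3, h3, hS⟩ := pick {a0, a1, a2, a4, a5} (Finset.card_le_five)
  simp only [Finset.mem_insert, Finset.mem_singleton, not_or] at hS
  obtain ⟨n30, n31, n32, n34, n35⟩ := hS
  have hset : ({a0, a1, a2, a3, a4, a5} : Finset ℕ) = V := by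
    apply Finset.eq_of_subset_of_card_le
    · intro t ht
      simp only [Finset.mem_insert, Finset.mem_singleton] at ht
      rcases ht with rfl | rfl | rfl | rfl | rfl | rfl <;> assumption
    · rw [h6]
      apply le_of_eq
      rw [Finset.card_insert_of_notMem, Finset.card_insert_of_notMem, Finset.card_insert_of_notMem,
        Finset.card_insert_of_notMem, Finset.card_insert_of_notMem, Finset.card_singleton]
      · simpa using n54.symm
      · simp only [Finset.mem_insert, Finset.mem_singleton, not_or]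
        exact ⟨n34, n35⟩
      · simp only [Finset.mem_insert, Finset.mem_singleton, not_or]
        exact ⟨fun h => n32 h.symm, n24, n25⟩
      · simp only [Finset.mem_insert, Finset.mem_singleton, not_or]
        exact ⟨n12, fun h => n31 h.symm, fun h => n41 h.symm, n15⟩
      · simp only [Finset.mem_insert, Finset.mem_singleton, not_or]
        exact ⟨n01, fun h => n20 h.symm, fun h => n30 h.symm, fun h => n40 h.symm, n05⟩
  have hV : ∀ z ∈ V, z = a0 ∨ z = a1 ∨ z = a2 ∨ z = a3 ∨ z = a4 ∨ z = a5 := by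
    intro z hz
    rw [← hset] at hz
    simpa using hz
  -- the two vertices not adjacent to `a3`
  obtain ⟨x, hx, y, hy, hxy, h3x, h3y, rx, ry, -⟩ := h.two h6 h3
  have key : ∀ y ∈ V, a3 ≠ y → ¬ R a3 y → y = a2 ∨ y = a4 := by
    intro y hy hxy hR
    rcases hV y hy with rfl | rfl | rfl | rfl | rfl | rfl
    · rcases all0 a3 h3 hxy.symm (fun h7 => hR (h.symm h7)) with h7 | h7
      · exact absurd h7 n31
      · exact absurd h7 n35
    · rcases all1 a3 h3 hxy.symm (fun h7 => hR (h.symm h7)) with h7 | h7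
      · exact absurd h7 n30
      · exact absurd h7 n32
    · exact Or.inl rfl
    · exact absurd rfl hxy
    · exact Or.inr rfl
    · rcases all5 a3 h3 hxy.symm (fun h7 => hR (h.symm h7)) with h7 | h7
      · exact absurd h7 n30
      · exact absurd h7 n34
  have r32 : ¬ R a3 a2 ∧ ¬ R a3 a4 := by
    rcases key x hx h3x rx with h7 | h7 <;> rcases key y hy h3y ry with h8 | h8
    · exact absurd (h7.trans h8.symm) hxy
    · exact ⟨h7 ▸ rx, h8 ▸ ry⟩
    · exact ⟨h8 ▸ ry, h7 ▸ rx⟩
    · exact absurd (h7.trans h8.symm) hxy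
  have hr : ∀ p, (∃ i, (![a0, a1, a2, a3, a4, a5] : Fin 6 → ℕ) i = p) ↔ p ∈ V := by
    intro p
    constructor
    · rintro ⟨i, rfl⟩
      fin_cases i <;> simpa
    · intro hp'
      rcases hV p hp' with rfl | rfl | rfl | rfl | rfl | rfl
      · exact ⟨0, rfl⟩
      · exact ⟨1, rfl⟩
      · exact ⟨2, rfl⟩
      · exact ⟨3, rfl⟩
      · exact ⟨4, rfl⟩
      · exact ⟨5, rfl⟩
  refine ⟨![a0, a1, a2, a3, a4, a5], ?_, hr, ?_⟩
  · have him : Finset.univ.image (![a0, a1, a2, a3, a4, a5] : Fin 6 → ℕ) = V := by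
      ext p
      rw [← hr, Finset.mem_image]
      exact ⟨fun ⟨i, _, hi⟩ => ⟨i, hi⟩, fun ⟨i, hi⟩ => ⟨i, Finset.mem_univ _, hi⟩⟩
    have hinj := Finset.card_image_iff.1 (show (Finset.univ.image (![a0, a1, a2, a3, a4, a5] : Fin 6 → ℕ)).card =
      (Finset.univ : Finset (Fin 6)).card by rw [him, h6, Finset.card_univ, Fintype.card_fin])
    exact fun i j hij => hinj (Finset.mem_coe.2 (Finset.mem_univ i)) (Finset.mem_coe.2 (Finset.mem_univ j)) hij
  · intro i
    fin_cases i
    · exact r01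
    · exact r12
    · exact fun h7 => r32.1 (h.symm h7)
    · exact r32.2
    · exact fun h7 => r54 (h.symm h7)
    · exact fun h7 => r05 (h.symm h7)

/-- **The solvable case.** -/
theorem solv (h : Cub R V) (hp : ∀ a ∈ V, ∀ b ∈ V, ∀ c ∈ V, a ≠ b → b ≠ c → a ≠ c → R a b ∨ R b c ∨ R a c) :
    V.card ≤ 5 ∨
    (∃ a : Fin 6 → ℕ, Function.Injective a ∧ (∀ p, (∃ i, a i = p) ↔ p ∈ V) ∧ ∀ i, ¬ R (a i) (a (i + 1))) ∨
    ∃ A B : Finset ℕ, A.card = 4 ∧ B.card = 4 ∧ Disjoint A B ∧ A ∪ B = V ∧ ∀ a ∈ A, ∀ b ∈ B, ¬ R a b := by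
  classical
  by_cases h5 : V.card ≤ 5
  · exact Or.inl h5
  right
  by_cases h6 : V.card = 6
  · exact Or.inl (h.hex h6 hp)
  right
  have hev := h.even
  have h8 : 8 ≤ V.card := by
    obtain ⟨k, hk⟩ := hev
    omega
  obtain ⟨u, hu⟩ : V.Nonempty := Finset.card_pos.1 (by omega)
  -- two vertices which are not adjacent
  have key : ∀ u ∈ V, ∀ v ∈ V, u ≠ v → ¬ R u v → ∀ N M : Finset ℕ, N.card = 3 → M.card = 3 → u ∉ N → v ∉ M →
      (∀ w, w ∈ N ↔ R u w) → (∀ w, w ∈ M ↔ R v w) → Disjoint (insert u N) (insert v M) ∧ insert u N ∪ insert v M = V := by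
    intro u hu v hv huv hR N M hN hM huN hvM hNm hMm
    have h9 : insert u N ∪ insert v M = V := by
      apply Finset.Subset.antisymm
      · intro w hw
        rw [Finset.mem_union, Finset.mem_insert, Finset.mem_insert, hNm, hMm] at hw
        rcases hw with (rfl | hw) | (rfl | hw)
        · exact hu
        · exact h.mem (h.symm hw)
        · exact hv
        · exact h.mem (h.symm hw)
      · intro w hw
        rw [Finset.mem_union, Finset.mem_insert, Finset.mem_insert, hNm, hMm]
        by_cases e1 : w = u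
        · exact Or.inl (Or.inl e1)
        by_cases e2 : w = v
        · exact Or.inr (Or.inl e2)
        rcases hp u hu v hv w hw huv (fun e => e2 e.symm) (fun e => e1 e.symm) with e | e | e
        · exact absurd e hR
        · exact Or.inr (Or.inr e)
        · exact Or.inl (Or.inr e)
    refine ⟨?_, h9⟩
    have h10 := Finset.card_union_add_card_inter (insert u N) (insert v M)
    rw [h9, Finset.card_insert_of_notMem huN, Finset.card_insert_of_notMem hvM, hN, hM] at h10
    rw [Finset.disjoint_iff_inter_eq_empty, ← Finset.card_eq_zero]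
    omega
  obtain ⟨N, hN3, hNV, huN, hN⟩ := h.nbr hu
  obtain ⟨v, hv, hvS⟩ : ∃ v ∈ V, v ∉ insert u N := by
    by_contra hcon
    push Not at hcon
    have h7 := Finset.card_le_card (show V ⊆ insert u N from hcon)
    rw [Finset.card_insert_of_notMem huN] at h7
    omega
  rw [Finset.mem_insert, not_or, hN] at hvS
  obtain ⟨M, hM3, hMV, hvM, hM⟩ := h.nbr hv
  obtain ⟨hd, hU⟩ := key u hu v hv (fun e => hvS.1 e.symm) hvS.2 N M hN3 hM3 huN hvM hN hM
  refine ⟨insert u N, insert v M, ?_, ?_, hd, hU, ?_⟩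
  · rw [Finset.card_insert_of_notMem huN, hN3]
  · rw [Finset.card_insert_of_notMem hvM, hM3]
  · intro a ha b hb hab
    have hd' := Finset.disjoint_left.1 hd
    -- `a` is not adjacent to `v`
    have hav : ¬ R a v := by
      intro e
      exact hd' ha (Finset.mem_insert_of_mem ((hM a).2 (h.symm e)))
    have hanv : a ≠ v := by
      rintro rfl
      exact hd' ha (Finset.mem_insert_self _ _)
    have haV : a ∈ V := by
      rw [← hU]
      exact Finset.mem_union_left _ ha
    rcases Finset.mem_insert.1 hb with rfl | hb'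
    · exact hav hab
    · obtain ⟨L, hL3, hLV, haL, hL⟩ := h.nbr haV
      obtain ⟨hd2, -⟩ := key a haV v hv hanv hav L M hL3 hM3 haL hvM hL hM
      exact Finset.disjoint_left.1 hd2 (Finset.mem_insert_of_mem ((hL b).2 hab)) (Finset.mem_insert_of_mem hb')

end Cfsg.Agent.H670.Reg.Cub
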