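import Cfsg.Agent.H670.Reg.Defs
import Cfsg.Agent.H436.KFourEx
import Cfsg.Agent.S0256
import Cfsg.Agent.H128.KitePsl
import Cfsg.Agent.H791.Kite.FourB
import Cfsg.Agent.H679.Reg.KiteC
import Cfsg.Agent.H679.Reg.KiteJ2

/-!
# 3-regular degree graphs (S4919): simple groups with exactly four prime divisors (helper670)
-/

set_option autoImplicit false

namespace Cfsg.Agent.H670.Reg

open Cfsg Cfsg.Agent.OrdDiv Cfsg.Agent.H436

universe u v

/-- The rows of other helpers. -/
structure Rows4 : Prop where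
  g23 : ∀ (S : Type v) [Group S] [Finite S] [IsSimpleGroup S], Real (.g2 3) S → Kite S
  d42 : ∀ (S : Type v) [Group S] [Finite S] [IsSimpleGroup S], Real (.td4 2) S → Kite S
  tits : ∀ (S : Type v) [Group S] [Finite S] [IsSimpleGroup S], Real .tits S → Kite S
  m11 : ∀ (S : Type v) [Group S] [Finite S] [IsSimpleGroup S], Real .m11 S → Paw.{u, v} S
  l34 : ∀ (S : Type v) [Group S] [Finite S] [IsSimpleGroup S], Real (.psl 3 4) S → Paw.{u, v} S
  sz : ∀ (S : Type v) [Group S] [Finite S] [IsSimpleGroup S] (q : ℕ), Real (.sz q) S → (Nat.card S).primeFactors.card = 4 →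
    Paw.{u, v} S

theorem card_pf (g : Grp) (h : (ordN g).primeFactors.card ≠ 4) {S : Type v} [Group S] (hn : IsNamed g S)
    (h4 : (Nat.card S).primeFactors.card = 4) : False := by
  rw [hn.ord] at h4
  exact h h4

/-- **Exactly four prime divisors.** -/
theorem kiteFour (R : Rows4.{u, v})
    (hN : ∀ (S : Type v) [Group S] [Finite S] [IsSimpleGroup S], ¬ IsMulCommutative S → ∃ g, IsNamed g S) :
    FactKiteFour.{u, v} := by
  intro S _ _ hs hna hL h4
  obtain ⟨g, hg⟩ := hN S hna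
  have hc := k_four hg (le_of_eq h4)
  rcases hc with ⟨q, rfl⟩ | ⟨q, rfl⟩ | hc
  · exfalso
    obtain ⟨F, iF, iF', hF, e⟩ := hg.real
    have h5 := hg.cond.2.1 rfl
    exact hL ⟨F, iF, iF', by rw [hF]; exact h5, e⟩
  · exact Or.inr (R.sz S q hg.real h4)
  · simp only [KFL, List.mem_cons, List.not_mem_nil, or_false] at hc
    rcases hc with rfl | rfl | rfl | rfl | rfl | rfl | rfl | rfl | rfl | rfl | rfl | rfl | rfl | rfl | rfl | rfl |
      rfl | rfl | rfl | rfl | rfl | rfl | rfl | rfl | rfl | rfl | rfl | rfl | rfl | rfl | rfl | rfl | rfl | rfl |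
      rfl | rfl | rfl | rfl | rfl | rfl | rfl
    · exact (card_pf _ (by decide +kernel) hg h4).elim
    · exact (card_pf _ (by decide +kernel) hg h4).elim
    · obtain ⟨e⟩ := hg.real
      exact Or.inl (H679.Reg.Kite.congr e (H679.Reg.kite_alt (by norm_num)))
    · obtain ⟨e⟩ := hg.real
      exact Or.inl (H679.Reg.Kite.congr e (H679.Reg.kite_alt (by norm_num)))
    · obtain ⟨e⟩ := hg.real
      exact Or.inl (H679.Reg.Kite.congr e (H679.Reg.kite_alt (by norm_num)))
    · obtain ⟨e⟩ := hg.real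
      exact Or.inl (H679.Reg.Kite.congr e (H679.Reg.kite_alt (by norm_num)))
    -- `PSL`
    · exact (card_pf _ (by decide +kernel) hg h4).elim
    · exact (card_pf _ (by decide +kernel) hg h4).elim
    · exact Or.inr (R.l34 S hg.real)
    · obtain ⟨F, _, _, hF, ⟨e⟩⟩ := hg.real
      exact Or.inl (H128.KitePsl.kite_psl3 (Or.inl hF) e)
    · obtain ⟨F, _, _, hF, ⟨e⟩⟩ := hg.real
      exact Or.inl (H128.KitePsl.kite_psl3 (Or.inr (Or.inl hF)) e)
    · obtain ⟨F, _, _, hF, ⟨e⟩⟩ := hg.real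
      exact Or.inl (H128.KitePsl.kite_psl3 (Or.inr (Or.inr (Or.inl hF))) e)
    · exact (card_pf _ (by decide +kernel) hg h4).elim
    · obtain ⟨F, _, _, hF, ⟨e⟩⟩ := hg.real
      exact Or.inl (H128.KitePsl.kite_psl3 (Or.inr (Or.inr (Or.inr hF))) e)
    · obtain ⟨F, _, _, hF, ⟨e⟩⟩ := hg.real
      obtain ⟨e'⟩ := S0256.result hF
      exact Or.inl (H679.Reg.Kite.congr (e.trans e') (H679.Reg.kite_alt (by norm_num)))
    · obtain ⟨F, _, _, hF, ⟨e⟩⟩ := hg.real
      exact Or.inl (H128.KitePsl.kite_psl4 hF e)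
    -- `PSp`
    · exact (card_pf _ (by decide +kernel) hg h4).elim
    · obtain ⟨F, _, _, hF, ⟨e⟩⟩ := hg.real
      exact Or.inl (H679.Reg.Kite.congr e (H679.Reg.kite_psp44 F hF))
    · obtain ⟨F, _, _, hF, ⟨e⟩⟩ := hg.real
      exact Or.inl (H679.Reg.Kite.congr e (H679.Reg.kite_psp45 F hF))
    · obtain ⟨F, _, _, hF, ⟨e⟩⟩ := hg.real
      exact Or.inl (H679.Reg.Kite.congr e (H679.Reg.kite_psp47 F hF))
    · exact (card_pf _ (by decide +kernel) hg h4).elim
    · obtain ⟨F, _, _, hF, ⟨e⟩⟩ := hg.real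
      exact Or.inl (H679.Reg.Kite.congr e (H679.Reg.kite_psp49 F hF))
    · exact (card_pf _ (by decide +kernel) hg h4).elim
    · obtain ⟨F, _, _, hF, ⟨e⟩⟩ := hg.real
      exact Or.inl (H679.Reg.Kite.congr e (H679.Reg.kite_psp62 F hF))
    -- `PSU`
    · exact (card_pf _ (by decide +kernel) hg h4).elim
    · exact Or.inl (H791.Kite.kite_psu3 (q := 4) (by norm_num) hg.real)
    · exact Or.inl (H791.Kite.kite_psu3 (q := 5) (by norm_num) hg.real)
    · exact Or.inl (H791.Kite.kite_psu3 (q := 7) (by norm_num) hg.real)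
    · exact Or.inl (H791.Kite.kite_psu3 (q := 8) (by norm_num) hg.real)
    · exact Or.inl (H791.Kite.kite_psu3 (q := 9) (by norm_num) hg.real)
    · exact Or.inl (H791.Kite.kite_psu3 (q := 17) (by norm_num) hg.real)
    · exact (card_pf _ (by decide +kernel) hg h4).elim
    · exact Or.inl (H791.Kite.kite_psu4_3 hg.real)
    · exact Or.inl (H791.Kite.kite_psu5_2 hg.real)
    -- the others
    · obtain ⟨F, _, _, hF, ⟨e⟩⟩ := hg.real
      exact Or.inl (H679.Reg.Kite.congr e (H679.Reg.kite_o8p2 F hF))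
    · exact Or.inl (R.g23 S hg.real)
    · exact Or.inl (R.d42 S hg.real)
    · exact Or.inl (R.tits S hg.real)
    · exact Or.inr (R.m11 S hg.real)
    · exact Or.inl (H679.Reg.kite_m12 hg.real)
    · exact Or.inl (H679.Reg.kite_j2 hg.real)

end Cfsg.Agent.H670.Reg
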